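import Cfsg.Agent.H86.M8.Def

/-! Row S3384, part M, slot G1: the four groups of the diagram generate. -/

set_option autoImplicit false

namespace H77.O84G1

open H56 H86.M8 Subgroup

theorem rh_swap {i j : Fin 4} (h : i ≠ j) : Rh i j sS = Pm (Equiv.swap i j) :=
  O.ext fun x => funext fun k => by
    rw [Rh_apply h, Pm_apply, Equiv.symm_swap, Equiv.swap_apply_def]
    split_ifs <;> simp [sS]

theorem pm_lh (π : Equiv.Perm (Fin 4)) {i j : Fin 4} (h : i ≠ j) (p : S) :
    Pm π * Lh i j p = Lh (π i) (π j) p * Pm π :=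
  O.ext fun x => funext fun k => by
    simp only [O.mul_apply, Pm_apply, Lh_apply h, Lh_apply (π.injective.ne h), Equiv.symm_apply_eq,
      Equiv.symm_apply_apply]

theorem pm_rh (π : Equiv.Perm (Fin 4)) {i j : Fin 4} (h : i ≠ j) (p : S) :
    Pm π * Rh i j p = Rh (π i) (π j) p * Pm π :=
  O.ext fun x => funext fun k => by
    simp only [O.mul_apply, Pm_apply, Rh_apply h, Rh_apply (π.injective.ne h), Equiv.symm_apply_eq,
      Equiv.symm_apply_apply]

theorem jG1 : G1 := by
  have m : ∀ i p, hA i p ∈ ⨆ i, (hA i).range := fun i p => mem_iSup_of_mem i ⟨p, rfl⟩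
  have hp : ∀ π, Pm π ∈ ⨆ i, (hA i).range := fun π => by
    have : Submonoid.closure (Set.range fun i : Fin 3 => Equiv.swap i.castSucc i.succ) ≤
        ((⨆ i, (hA i).range).comap Pm).toSubmonoid := by
      refine Submonoid.closure_le.2 ?_
      rintro _ ⟨i, rfl⟩
      show Pm _ ∈ ⨆ i, (hA i).range
      rw [← rh_swap (Fin.castSucc_lt_succ).ne]
      fin_cases i
      exacts [m 0 sS, m 1 sS, m 2 sS]
    rw [Equiv.Perm.mclosure_swap_castSucc_succ] at this
    exact this (Submonoid.mem_top π)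
  refine (closure_le _).2 ?_
  rintro g ⟨i, j, p, hg⟩
  by_cases h : i = j
  · subst h
    have : g = 1 := by
      rcases hg with rfl | rfl
      · rw [Lh_self]; rfl
      · rw [Rh_eq, Lh_self, MonoidHom.one_apply, mul_one, ka_sq]
    rw [this]
    exact one_mem _
  · obtain ⟨π, rfl, rfl⟩ : ∃ π : Equiv.Perm (Fin 4), π 2 = i ∧ π 3 = j :=
      (by decide : ∀ i j : Fin 4, ¬ i = j → ∃ π : Equiv.Perm (Fin 4), π 2 = i ∧ π 3 = j) i j h
    rcases hg with rfl | rfl
    · rw [← mul_inv_eq_iff_eq_mul.2 (pm_lh π (by decide) p)]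
      exact mul_mem (mul_mem (hp π) (m 3 p)) (inv_mem (hp π))
    · rw [← mul_inv_eq_iff_eq_mul.2 (pm_rh π (by decide) p)]
      exact mul_mem (mul_mem (hp π) (m 2 p)) (inv_mem (hp π))

end H77.O84G1
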