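import Cfsg.Agent.H42.SimXBSpec

/-! # Slot SIM-XB-K2: invariance of the span of `E` -/

set_option autoImplicit false

namespace H77.SimK2

open Subgroup Cfsg H98 Matrix H0.Sim H42.SX

variable {n : ℕ} {F : Type} [Field F]

theorem th_zero (j : Jm n F) : th j 0 = 0 := by
  unfold th
  split_ifs <;> simp

theorem th_add (j : Jm n F) (a b : Mt n F) : th j (a + b) = th j a + th j b := by
  have : (a + b).map j.σ = a.map j.σ + b.map j.σ := Matrix.map_add _ (map_add j.σ) a b
  unfold th
  split_ifs <;> simp only [this, transpose_add, mul_add, add_mul]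

theorem th_smul (j : Jm n F) (c : F) (a : Mt n F) : th j (c • a) = j.σ c • th j a := by
  have : (c • a).map j.σ = j.σ c • a.map j.σ := by
    ext i k; simp
  unfold th
  split_ifs <;> simp only [this, transpose_smul, Matrix.mul_smul, Matrix.smul_mul]

theorem th_inn (h : GL (Fin n) F) (m : Mt n F) : th ⟨h, RingEquiv.refl F, false⟩ m =
    (h : Mt n F) * m * ((h⁻¹ : GL (Fin n) F) : Mt n F) := by
  have : m.map (RingEquiv.refl F) = m := by ext i k; simp
  simp only [th, this, Bool.false_eq_true, if_false]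

theorem le_nor {Θ : Set (Jm n F)} {H Q : Subgroup (GL (Fin n) F)}
    (inn : ∀ h ∈ H, (⟨h, RingEquiv.refl F, false⟩ : Jm n F) ∈ Θ) (iv : Iv Θ (mat Q)) :
    H ≤ normalizer (Q : Set (GL (Fin n) F)) := by
  have key : ∀ h ∈ H, ∀ y ∈ Q, h * y * h⁻¹ ∈ Q := fun h hh y hy => by
    obtain ⟨e, he, e1⟩ := iv _ (inn h hh) (y : Mt n F) ⟨y, hy, rfl⟩
    rw [th_inn] at e1
    have : e = h * y * h⁻¹ := Units.ext (by rw [e1, Units.val_mul, Units.val_mul])
    exact this ▸ he
  intro h hh
  refine mem_normalizer_iff.2 fun y => ⟨key h hh y, fun hy => ?_⟩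
  have := key _ (inv_mem hh) _ hy
  simpa [mul_assoc] using this

theorem jobK2 : JobK2 := by
  intro n F _ _ u q p Θ H Q E c
  have h1 : Iv Θ (sp E : Set (Mt n F)) := fun j hj m hm => by
    induction hm using Submodule.span_induction with
    | mem x hx => exact Submodule.subset_span (c.ivE j hj x hx)
    | zero => rw [th_zero]; exact Submodule.zero_mem _
    | add a b _ _ ha hb => rw [th_add]; exact Submodule.add_mem _ ha hb
    | smul r a _ ha => rw [th_smul]; exact Submodule.smul_mem _ _ ha
  refine ⟨h1, fun h hh m hm => ?_, le_nor c.inn c.ivQ, le_nor c.inn c.ivE⟩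
  rw [← th_inn]
  exact h1 _ (c.inn h hh) m hm

end H77.SimK2
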