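import Cfsg.Agent.H52.SimXSSpec
import Cfsg.Agent.H77.SimK2

/-! # Slot SIM-XS-N9: the case of dimension 9 -/

set_option autoImplicit false

namespace H77.SimN9

open Subgroup Cfsg H98 Matrix H0.Sim H52.XS

theorem job : JobN9 := by
  intro e3 z4 cub cy u9 F _ _ Θ H Q E cf ex nc ivC hs had md c hc cc cZ
  have card4 : Fintype.card F = 4 := by simpa using cf.par.card
  obtain ⟨E₃, t3⟩ := e3 9 F true 2 3 Θ H Q E cf c hc cc cZ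
  obtain ⟨zc, z3, zp, -⟩ := z4 9 F _ card4 ex.Zc
  obtain ⟨a, ha, aZ, a3⟩ := (cub _ _ E zc z3 zp cf.pE ex.cm).1 nc
  by_cases h : ∃ e ∈ E₃, e ∉ Zg 9 F true 2 ∧ e ^ 3 = 1
  · obtain ⟨e, he, eZ, e3'⟩ := h
    exact u9 F Θ H Q E E₃ cf ex t3 a ha e he aZ eZ a3 e3'
  have h' : ∀ e ∈ E₃, e ^ 3 = 1 → e ∈ Zg 9 F true 2 := fun e he e3' =>
    by_contra fun eZ => h ⟨e, he, eZ, e3'⟩
  obtain ⟨t, tG, tS, t2, ht⟩ := cy 9 F (CE E) card4 had md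
  obtain ⟨t0, t1⟩ := (Submonoid.mem_units_iff _ _).1 (mem_inf.1 tG).2
  have tH : t ∈ H := cf.mp _ ivC hs t tS fun m hm =>
    (CE E).mul_mem ((CE E).mul_mem t0 hm) t1
  obtain ⟨x, hx, xZ⟩ := SetLike.not_le_iff_exists.1 t3.ne
  have tx := (cub _ _ E₃ zc z3 zp t3.pw t3.cm).2 h' t (H77.SimK2.le_nor cf.inn t3.iv tH) t2 x hx
  refine xZ (h' x hx (ht x ?_ tx (ex.Zc _ (t3.pw x hx))))
  refine (Subalgebra.mem_centralizer_iff F).2 ?_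
  rintro m ⟨e, he, rfl⟩
  rw [← Units.val_mul, ← Units.val_mul, mem_centralizer_iff.1 (t3.C3 hx) e he]

end H77.SimN9
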