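/- C3 tower (row S5227), slot Tri (blueprints/C3.md): the five automizers. -/
import Cfsg.Agent.H20.C3Kit
import Cfsg.Agent.H90.U5Tri

set_option autoImplicit false
set_option linter.unusedSectionVars false
set_option linter.unusedSimpArgs false

open Subgroup H92 Cfsg Cfsg.FusionSystem H90.RF H20.C3
open H90.U5 (fn_X conj_aY res_aY inn_of_cg ext_of nor_of_cm pr_bot lg_aY)

namespace H77.C3Tri

instance fact3 : Fact (Nat.Prime 3) := ⟨Nat.prime_three⟩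

/-- a series of `E₁` -/
def y1 : ℕ → Subgroup Co
  | 0 => ⊥ | 1 => sZ | 2 => sZ2 | 3 => sW | 4 => sZ3 | 5 => sA5 | 6 => sA | 7 => sD | _ => sE1
/-- a series of `E₂` -/
def y2 : ℕ → Subgroup Co
  | 0 => ⊥ | 1 => sZ | 2 => sZ2 | 3 => sW2 | 4 => sZ3 | 5 => sA5 | 6 => sA | 7 => sD | _ => sE2
/-- a series of `E₃` -/
def y3 : ℕ → Subgroup Co
  | 0 => ⊥ | 1 => sZ | 2 => sZ2 | 3 => sW | 4 => sZ3 | 5 => sY | 6 => sZ4 | 7 => sR | _ => sE3
/-- a short series of `E₁` -/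
def r1 : ℕ → Subgroup Co
  | 0 => ⊥ | 1 => sZ | 2 => sW | 3 => sA5 | 4 => sA | _ => sE1
/-- a short series of `E₂` -/
def r2 : ℕ → Subgroup Co
  | 0 => ⊥ | 1 => sZ | 2 => sW2 | 3 => sA | _ => sE2
/-- a short series of `E₃` -/
def r3 : ℕ → Subgroup Co
  | 0 => ⊥ | 1 => sZ | 2 => sZ2 | 3 => sW | 4 => sY | 5 => sR | _ => sE3

theorem ny1 (j : ℕ) : (y1 j).Normal := by unfold y1; split <;> infer_instance
theorem ny2 (j : ℕ) : (y2 j).Normal := by unfold y2; split <;> infer_instance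
theorem ny3 (j : ℕ) : (y3 j).Normal := by unfold y3; split <;> infer_instance
theorem nr1 (j : ℕ) : (r1 j).Normal := by unfold r1; split <;> infer_instance
theorem nr2 (j : ℕ) : (r2 j).Normal := by unfold r2; split <;> infer_instance
theorem nr3 (j : ℕ) : (r3 j).Normal := by unfold r3; split <;> infer_instance

theorem y1_mono (i : ℕ) : y1 i ≤ y1 (i + 1) := by
  rcases i with _ | _ | _ | _ | _ | _ | _ | _ | i
  exacts [bot_le, Z_le_Z2, Z2_le_W, W_le_Z3, Z3_le_A5, A5_le_A, A_le_D, D_le_E1, le_rfl]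
theorem y2_mono (i : ℕ) : y2 i ≤ y2 (i + 1) := by
  rcases i with _ | _ | _ | _ | _ | _ | _ | _ | i
  exacts [bot_le, Z_le_Z2, Z2_le_W2, W2_le_Z3, Z3_le_A5, A5_le_A, A_le_D, D_le_E2, le_rfl]
theorem y3_mono (i : ℕ) : y3 i ≤ y3 (i + 1) := by
  rcases i with _ | _ | _ | _ | _ | _ | _ | _ | i
  exacts [bot_le, Z_le_Z2, Z2_le_W, W_le_Z3, Z3_le_Y, Y_le_Z4, Z4_le_R, R_le_E3, le_rfl]
theorem r1_mono (i : ℕ) : r1 i ≤ r1 (i + 1) := by
  rcases i with _ | _ | _ | _ | _ | i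
  exacts [bot_le, Z_le_W, W_le_A5, A5_le_A, A_le_E1, le_rfl]
theorem r2_mono (i : ℕ) : r2 i ≤ r2 (i + 1) := by
  rcases i with _ | _ | _ | _ | i
  exacts [bot_le, Z_le_W2, W2_le_A, A_le_E2, le_rfl]
theorem r3_mono (i : ℕ) : r3 i ≤ r3 (i + 1) := by
  rcases i with _ | _ | _ | _ | _ | _ | i
  exacts [bot_le, Z_le_Z2, Z2_le_W, W_le_Y, Y_le_R, R_le_E3, le_rfl]

theorem le_of_mono {z : ℕ → Subgroup Co} (h : ∀ i, z i ≤ z (i + 1)) (n : ℕ) : ∀ i ≤ n, z i ≤ z n :=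
  fun _ hi => monotone_nat_of_le_succ h hi

theorem cm_S_D (s : Co) {m : Co} (hm : m ∈ sD) : cm s m ∈ sA := by simp [mem_sA, cm_d, hm.1, hm.2]

theorem y1_cm : ∀ i < 8, ∀ u ∈ y1 (i + 1), ∀ s, cm s u ∈ y1 i := by
  intro i hi u hu s
  interval_cases i
  exacts [cm_S_Z s hu, cm_S_Z2 s hu, cm_S_Z3 s (W_le_Z3 hu), Z2_le_W (cm_S_Z3 s hu),
    cm_S_Z4 s (A5_le_Z4 hu), cm_S_A s hu, cm_S_D s hu, Z4_le_D (cm_S_S s u)]
theorem y2_cm : ∀ i < 8, ∀ u ∈ y2 (i + 1), ∀ s, cm s u ∈ y2 i := by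
  intro i hi u hu s
  interval_cases i
  exacts [cm_S_Z s hu, cm_S_Z2 s hu, cm_S_Z3 s (W2_le_Z3 hu), Z2_le_W2 (cm_S_Z3 s hu),
    cm_S_Z4 s (A5_le_Z4 hu), cm_S_A s hu, cm_S_D s hu, Z4_le_D (cm_S_S s u)]
theorem y3_cm : ∀ i < 8, ∀ u ∈ y3 (i + 1), ∀ s, cm s u ∈ y3 i := by
  intro i hi u hu s
  interval_cases i
  exacts [cm_S_Z s hu, cm_S_Z2 s hu, cm_S_Z3 s (W_le_Z3 hu), Z2_le_W (cm_S_Z3 s hu),
    cm_S_Z4 s (Y_le_Z4 hu), Z3_le_Y (cm_S_Z4 s hu), cm_S_S s u, Z4_le_R (cm_S_S s u)]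

variable {X U : Subgroup Co} {β : Co → Co} {s m u : Co}

theorem step (a : Au X β) (p : Pr β U) (hU : U ≤ X) (hs : s ∈ X) (hm : m ∈ X)
    (h1 : (cm s m)⁻¹ * u ∈ U) (h2 : (cm s m)⁻¹ * cm (β s) (β m) ∈ U) : u⁻¹ * β u ∈ U := by
  have e := a.mul _ (cm_mem hs hm) _ (hU h1)
  rw [mul_inv_cancel_left, a.cm hs hm] at e
  have := mul_mem (mul_mem (inv_mem h1) h2) (p _ h1)
  rw [e]
  simpa [mul_assoc] using this

theorem pr_of_fix (h : ∀ u ∈ U, u⁻¹ * β u ∈ (⊥ : Subgroup Co)) : Pr β U := fun u hu =>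
  (inv_mul_eq_one.1 (mem_bot.1 (h u hu))) ▸ hu

theorem cg1 (a : Au sE1 β) (pA : Pr β sA) (p5 : Pr β sA5) (pW : Pr β sW)
    (h1 : ∀ u ∈ sE1, (β u).b = u.b ∧ (β u).d = u.d) (h2 : ∀ u ∈ sA, (β u).c = u.c) : Cg r1 5 β id := by
  have ha : ∀ u ∈ sE1, (β u).a = 0 := a.mem
  have k3 : ∀ u ∈ sA5, u⁻¹ * β u ∈ sW := fun u hu => by
    have e1 := h1 (uu 0 u.e u.f) rfl
    have e2 := ha (uu 0 u.e u.f) rfl
    have e3 := pA (xc 1) ⟨rfl, rfl, rfl⟩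
    have e4 := h2 (xc 1) ⟨rfl, rfl, rfl⟩
    refine step a pW (W_le_A.trans A_le_E1) (s := uu 0 u.e u.f) (m := xc 1) rfl rfl ?_ ?_
    · simp [mem_sW, cm_d, cm_e, cm_f, uu, xc, hu.1, hu.2.1, hu.2.2.1, hu.2.2.2]
    · generalize β (uu 0 u.e u.f) = s at *
      generalize β (xc 1) = m at *
      simp [mem_sW, cm_d, cm_e, cm_f, e1.1, e1.2, e2, e3.1, e3.2.1, e3.2.2, e4, uu, xc]
  have t5 : ∀ u ∈ sA5, (β u).e = u.e ∧ (β u).f = u.f := fun u hu => by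
    have := k3 u hu
    simp [mem_sW, hu.1, hu.2.1, hu.2.2.1, hu.2.2.2, neg_add_eq_zero] at this
    exact ⟨this.2.2.2.2.1.symm, this.2.2.2.2.2.symm⟩
  have k1 : ∀ u ∈ sZ, u⁻¹ * β u ∈ (⊥ : Subgroup Co) := fun u hu => by
    have e1 := h1 (xd 1) rfl
    have e2 := ha (xd 1) rfl
    have e3 := p5 (xf (-u.z)) ⟨rfl, rfl, rfl, rfl⟩
    have e4 := t5 (xf (-u.z)) ⟨rfl, rfl, rfl, rfl⟩
    obtain ⟨u1, u2, u3, u4, u5, u6, u7, u8⟩ := hu
    refine step a (pr_bot a) bot_le (s := xd 1) (m := xf (-u.z)) rfl rfl (mem_bot.2 ?_) (mem_bot.2 ?_)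
    · ext <;> simp [cm_d, cm_e, cm_f, cm_g, cm_h, cm_z, xd, xf, two, *]
    · generalize β (xd 1) = s at *
      generalize β (xf (-u.z)) = m at *
      ext <;> simp [cm_d, cm_e, cm_f, cm_g, cm_h, cm_z, e1.1, e1.2, e2, e3.1, e3.2.1, e3.2.2.1, e3.2.2.2,
        e4.1, e4.2, xd, xf]
  intro i hi u hu
  interval_cases i
  · exact k1 u hu
  · have e1 := h1 (xb 1) rfl
    have e2 := ha (xb 1) rfl
    have e3 := p5 (vv 0 (-u.g) u.h 0 0 0) ⟨rfl, rfl, rfl, rfl⟩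
    have e4 := t5 (vv 0 (-u.g) u.h 0 0 0) ⟨rfl, rfl, rfl, rfl⟩
    obtain ⟨u1, u2, u3, u4, u5, u6⟩ := hu
    refine step (U := sZ) a (pr_of_fix k1) (Z_le_A.trans A_le_E1) (s := xb 1) (m := vv 0 (-u.g) u.h 0 0 0) rfl rfl ?_ ?_
    · simp [mem_sZ, cm_d, cm_e, cm_f, cm_g, cm_h, xb, vv, two, *]
    · generalize β (xb 1) = s at *
      generalize β (vv 0 (-u.g) u.h 0 0 0) = m at *
      simp [mem_sZ, cm_d, cm_e, cm_f, cm_g, cm_h, e1.1, e1.2, e2, e3.1, e3.2.1, e3.2.2.1, e3.2.2.2,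
        e4.1, e4.2, xb, vv]
  · exact k3 u hu
  · have e := pA u hu
    change u⁻¹ * β u ∈ sA5
    simp [mem_sA5, e.1, e.2.1, e.2.2, h2 u hu, hu.1, hu.2.1, hu.2.2]
  · have e := h1 u hu
    change u⁻¹ * β u ∈ sA
    simp [mem_sA, e.1, e.2, ha u hu, show u.a = 0 from hu]

theorem cg2 (a : Au sE2 β) (pA : Pr β sA) (pZ : Pr β sZ)
    (h1 : ∀ u ∈ sE2, (β u).a = u.a ∧ (β u).d = u.d) (hz : β (xz 1) = xz 1)
    (h2 : ∀ u ∈ sA, (β u).c = u.c ∧ (β u).e = u.e ∧ (β u).g = u.g) : Cg r2 4 β id := by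
  have hb : ∀ u ∈ sE2, (β u).b = 0 := a.mem
  intro i hi u hu
  interval_cases i
  · have e : u = xz u.z := by
      obtain ⟨u1, u2, u3, u4, u5, u6, u7, u8⟩ := hu
      ext <;> simp [xz, *]
    have := root_mem (X := eqS a (Au.id' sE2)) xz_zero xz_inv ⟨rfl, hz⟩ u.z
    rw [← e] at this
    exact mem_bot.2 (inv_mul_eq_one.2 this.2.symm)
  · have e1 := h1 (xa 1) rfl
    have e2 := hb (xa 1) rfl
    have e3 := pA (vv 0 u.f 0 u.h 0 0) ⟨rfl, rfl, rfl⟩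
    have e4 := h2 (vv 0 u.f 0 u.h 0 0) ⟨rfl, rfl, rfl⟩
    obtain ⟨u1, u2, u3, u4, u5, u6⟩ := hu
    refine step (U := sZ) a pZ (Z_le_A.trans A_le_E2) (s := xa 1) (m := vv 0 u.f 0 u.h 0 0) rfl rfl ?_ ?_
    · simp [mem_sZ, cm_d, cm_e, cm_f, cm_g, cm_h, xa, vv, *]
    · generalize β (xa 1) = s at *
      generalize β (vv 0 u.f 0 u.h 0 0) = m at *
      simp [mem_sZ, cm_d, cm_e, cm_f, cm_g, cm_h, e1.1, e1.2, e2, e3.1, e3.2.1, e3.2.2,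
        e4.1, e4.2.1, e4.2.2, xa, vv]
  · have e := pA u hu
    have e' := h2 u hu
    change u⁻¹ * β u ∈ sW2
    simp [mem_sW2, e.1, e.2.1, e.2.2, e'.1, e'.2.1, e'.2.2, hu.1, hu.2.1, hu.2.2]
  · have e := h1 u hu
    change u⁻¹ * β u ∈ sA
    simp [mem_sA, e.1, e.2, hb u hu, show u.b = 0 from hu]

theorem cg3 (a : Au sE3 β) (pR : Pr β sR) (pY : Pr β sY) (pW : Pr β sW) (p2 : Pr β sZ2) (pZ : Pr β sZ)
    (h1 : ∀ u ∈ sE3, (β u).a = u.a) (h2 : ∀ u ∈ sR, (β u).b = u.b ∧ (β u).e = u.e) : Cg r3 6 β id := by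
  have hc : ∀ u ∈ sE3, (β u).c = 0 := a.mem
  have a1 := h1 (xa 1) rfl
  have a2 := hc (xa 1) rfl
  have b1 := h2 (xb 1) ⟨rfl, rfl⟩
  have b2 := pR (xb 1) ⟨rfl, rfl⟩
  have k3 : ∀ u ∈ sY, u⁻¹ * β u ∈ sW := fun u hu => by
    have e3 := pR (vv 0 u.f 0 0 0 0 * xb u.d) (by simp [mem_sR, vv, xb])
    have e4 := h2 (vv 0 u.f 0 0 0 0 * xb u.d) (by simp [mem_sR, vv, xb])
    obtain ⟨u1, u2, u3, u4⟩ := hu
    refine step a pW (W_le_R.trans R_le_E3) (s := xa 1) (m := vv 0 u.f 0 0 0 0 * xb u.d) rfl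
      (by simp [mem_sE3, vv, xb]) ?_ ?_
    · simp [mem_sW, cm_d, cm_e, cm_f, xa, xb, vv, *]
    · generalize β (xa 1) = s at *
      generalize β (vv 0 u.f 0 0 0 0 * xb u.d) = m at *
      simp [mem_sW, cm_d, cm_e, cm_f, a1, a2, e3.1, e3.2, e4.1, e4.2, xa, xb, vv]
  have k1 : ∀ u ∈ sZ2, u⁻¹ * β u ∈ sZ := fun u hu => by
    have e3 := pY (xf u.h) ⟨rfl, rfl, rfl, rfl⟩
    have e4 := k3 (xf u.h) ⟨rfl, rfl, rfl, rfl⟩
    obtain ⟨u1, u2, u3, u4, u5, u6, u7⟩ := hu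
    refine step a pZ (Z_le_W.trans (W_le_R.trans R_le_E3)) (s := xb 1) (m := xf u.h) rfl rfl ?_ ?_
    · simp [mem_sZ, cm_d, cm_e, cm_f, cm_g, cm_h, xb, xf, *]
    · generalize β (xb 1) = s at *
      generalize β (xf u.h) = m at *
      simp [mem_sW, xf, neg_add_eq_zero] at e4
      simp [mem_sZ, cm_d, cm_e, cm_f, cm_g, cm_h, b1.1, b1.2, b2.1, b2.2, e3.1, e3.2.1, e3.2.2.1, e3.2.2.2,
        e4.2.2.1, ← e4.2.2.2.2.2, xb, xf]
  intro i hi u hu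
  interval_cases i
  · have e3 := p2 (xh (-u.z)) ⟨rfl, rfl, rfl, rfl, rfl, rfl, rfl⟩
    have e4 := k1 (xh (-u.z)) ⟨rfl, rfl, rfl, rfl, rfl, rfl, rfl⟩
    obtain ⟨u1, u2, u3, u4, u5, u6, u7, u8⟩ := hu
    refine step a (pr_bot a) bot_le (s := xa 1) (m := xh (-u.z)) rfl rfl (mem_bot.2 ?_) (mem_bot.2 ?_)
    · ext <;> simp [cm_d, cm_e, cm_f, cm_g, cm_h, cm_z, xa, xh, two, *]
    · generalize β (xa 1) = s at *
      generalize β (xh (-u.z)) = m at *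
      have e5 : m.h = -u.z := by
        have := e4.2.2.2.2.2.2.2
        simp [xh] at this
        linear_combination this
      obtain ⟨m1, m2, m3, m4, m5, m6, m7⟩ := e3
      ext <;> simp [cm_d, cm_e, cm_f, cm_g, cm_h, cm_z, a1, m1, m2, m3, m4, m5, m6, m7, e5, xa, xh]
  · exact k1 u hu
  · have e3 := pR (xe (-u.g)) ⟨rfl, rfl⟩
    have e4 := h2 (xe (-u.g)) ⟨rfl, rfl⟩
    obtain ⟨u1, u2, u3, u4, u5, u6⟩ := hu
    refine step (U := sZ2) a p2 (Z2_le_W.trans (W_le_R.trans R_le_E3)) (s := xb 1) (m := xe (-u.g)) rfl rfl ?_ ?_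
    · simp [mem_sZ2, cm_d, cm_e, cm_f, cm_g, xb, xe, two, *]
    · generalize β (xb 1) = s at *
      generalize β (xe (-u.g)) = m at *
      simp [mem_sZ2, cm_d, cm_e, cm_f, cm_g, b1.1, b1.2, b2.1, b2.2, e3.1, e3.2, e4.1, e4.2, xb, xe]
  · exact k3 u hu
  · have e := pR u hu
    have e' := h2 u hu
    change u⁻¹ * β u ∈ sY
    simp [mem_sY, e.1, e.2, e'.1, e'.2, hu.1, hu.2]
  · change u⁻¹ * β u ∈ sR
    simp [mem_sR, h1 u hu, hc u hu, show u.c = 0 from hu]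

variable {F : FusionSystem (⊤ : Subgroup Co)} (hF : F.IsSaturated 3) {α : Equiv.Perm Co}
include hF

theorem extA (hα : α ∈ aY F sA) (hX : sA ≤ X) (h : Nm α X) : In sA (aY F X) α := by
  obtain ⟨α, hα, rfl⟩ := hα
  have hP := pgroup_Co.to_subgroup ⊤
  obtain ⟨g, hg, e⟩ := exists_ext_aut hP hF (fc_of_fn hP hF (fn_X F)) hα
  have hg' : Mor F X g := hg.mono fun s hs => mem_Nx.2 ⟨⟨trivial, by
    rw [normalizer_eq_top]; trivial⟩, (h s hs).imp fun t ht => ⟨trivial, ht.2⟩⟩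
  obtain ⟨y, hy, k⟩ := exists_aY hg' fun s hs => by
    obtain ⟨t, ht, k⟩ := h s hs
    have q := eq_of_cj_A (s := g s) (t := t) fun u hu => by
      obtain ⟨v, hv, rfl⟩ := (au_af α).sur u hu
      rw [← k v hv, ← e _ (nA.conj_mem v hv s), hg'.map_conj hs (hX hv), e v hv]
    have : g s * t⁻¹ ∈ sA := by simp [mem_sA, q.1, q.2.1, q.2.2]
    exact (mul_mem_cancel_right (inv_mem ht)).1 (hX this)
  exact ⟨y, hy, fun c hc => by rw [k c (hX hc), e c hc]⟩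

theorem pelA (hα : α ∈ aY F sA) (h : α ^ 9 = 1) : α ^ 3 = 1 := by
  obtain ⟨α, hα, rfl⟩ := hα
  have sy := sylIn_of_fn (pgroup_Co.to_subgroup ⊤) hF (fn_X (X := sA) F)
  have h1 : α ^ 3 ^ 2 = 1 := aut_ext fun c _ => by rw [map_pow, show 3 ^ 2 = 9 from rfl, h, map_one]
  have h2 : IsPGroup 3 (zpowers α) := by
    rintro ⟨_, j, rfl⟩
    exact ⟨2, Subtype.ext (by
      change (α ^ j) ^ 3 ^ 2 = 1
      rw [← zpow_natCast, ← zpow_mul, mul_comm, zpow_mul, zpow_natCast, h1, one_zpow])⟩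
  obtain ⟨b, -, k⟩ := sy.exists_conj h2 (zpowers_le.2 hα)
  obtain ⟨s, -, e⟩ := mem_autInducedBy.1 (k α (mem_zpowers α))
  have h3 : (b * α * b⁻¹) ^ 3 = 1 := aut_eq_one fun c hc => by
    rw [pow_succ, pow_two, af_mul_apply, af_mul_apply, e c hc, e _ (nA.conj_mem c hc s),
      e _ (nA.conj_mem _ (nA.conj_mem c hc s) s)]
    calc _ = s ^ 3 * c * (s ^ 3)⁻¹ := by rw [pow_three]; group
      _ = c := by rw [comm_A (Z3_le_A (cube_mem_Z3 s)) hc, mul_inv_cancel_right]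
  rw [conj_pow, conj_eq_one_iff] at h3
  rw [← map_pow, h3, map_one]

omit hF in
theorem jobTri : H20.C3.JobTri := fun _ aS a1 a2 a3 aD F hF => by
  have hP := pgroup_Co
  have res : ∀ {X : Subgroup Co} {α : Equiv.Perm Co}, α ∈ aY F X → sA ≤ X → Pr α sA → In sA (aY F sA) α :=
    fun hα hX p => exists_aY ((mor_aY hα).mono hX) p
  refine ⟨lg_aY _, lg_aY _, lg_aY _, lg_aY _, lg_aY _, fun s => conj_aY F s,
    fun y hy h => (inn_of_cg hP hF z0 9 rfl le_rfl (fun _ _ => le_top) nz0 (fun i _ => z0_mono i) hy h).imp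
      fun _ h u => h u trivial,
    fun y hy => res_aY hy ((aS y ((lg_aY _).au y hy)).1 8),
    fun y hy => res_aY hy (aS y ((lg_aY _).au y hy)).2.2.1,
    fun y hy => res_aY hy (aS y ((lg_aY _).au y hy)).2.2.2.1,
    fun y hy => res_aY hy (aS y ((lg_aY _).au y hy)).2.1,
    fun α hα h => ?_, fun α hα h => ?_, fun α hα h => ?_, fun α hα h h' => ?_, fun α hα h h' => ?_,
    fun α hα h h' => ?_, fun α hα => res hα A_le_E1 (a1 α ((lg_aY _).au α hα)).1,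
    fun α hα => res hα A_le_E2 (a2 α ((lg_aY _).au α hα)).1, fun α hα h => ?_,
    fun α hα => extA hF hα A_le_E1, fun α hα => extA hF hα A_le_E2, fun α => pelA hF⟩
  · have a := (lg_aY _).au α hα
    obtain ⟨p1, p2, p3, p4, -⟩ := a1 α a
    obtain ⟨y, hy, e⟩ := ext_of hP hF hα (nor_of_cm hP hF y1 8 rfl le_rfl (le_of_mono y1_mono 8) y1_mono ny1
      y1_cm hα fun i hi => by
        interval_cases i
        exacts [pr_bot a, (p4 h).1, (p4 h).2.1, p3, (p4 h).2.2, p2, p1, h, a.mem])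
    exact ⟨y, hy, fun u hu => (e u hu).symm⟩
  · have a := (lg_aY _).au α hα
    obtain ⟨p1, p2, p3, p4, -⟩ := a2 α a
    obtain ⟨y, hy, e⟩ := ext_of hP hF hα (nor_of_cm hP hF y2 8 rfl le_rfl (le_of_mono y2_mono 8) y2_mono ny2
      y2_cm hα fun i hi => by
        interval_cases i
        exacts [pr_bot a, p3, (p4 h).1, p2, (p4 h).2.1, (p4 h).2.2, p1, h, a.mem])
    exact ⟨y, hy, fun u hu => (e u hu).symm⟩
  · have a := (lg_aY _).au α hα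
    obtain ⟨p1, p2, p3, p4, p5, p6, -⟩ := a3 α a
    obtain ⟨y, hy, e⟩ := ext_of hP hF hα (nor_of_cm hP hF y3 8 rfl le_rfl (le_of_mono y3_mono 8) y3_mono ny3
      y3_cm hα fun i hi => by
        interval_cases i
        exacts [pr_bot a, p5, p4, p3, p6 h, p2, h, p1, a.mem])
    exact ⟨y, hy, fun u hu => (e u hu).symm⟩
  · have a := (lg_aY _).au α hα
    obtain ⟨p1, p2, p3, -⟩ := a1 α a
    obtain ⟨s, e⟩ := inn_of_cg (X := sE1) hP hF r1 5 rfl le_rfl (le_of_mono r1_mono 5) nr1 (fun i _ => r1_mono i) hα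
      (cg1 a p1 p2 p3 h h')
    have := (h (xb 1) rfl).2
    rw [e _ rfl, cj_d] at this
    exact ⟨s, by simpa [xb, mem_sE1] using this, e⟩
  · have a := (lg_aY _).au α hα
    obtain ⟨p1, -, p3, -, -, p4⟩ := a2 α a
    obtain ⟨s, e⟩ := inn_of_cg (X := sE2) hP hF r2 4 rfl le_rfl (le_of_mono r2_mono 4) nr2 (fun i _ => r2_mono i) hα
      (cg2 a p1 p3 h h' (p4 h h'))
    have := (h (xa 1) rfl).2
    rw [e _ rfl, cj_d] at this
    exact ⟨s, by simpa [xa, mem_sE2] using this, e⟩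
  · have a := (lg_aY _).au α hα
    obtain ⟨p1, p2, p3, p4, p5, -⟩ := a3 α a
    obtain ⟨s, e⟩ := inn_of_cg (X := sE3) hP hF r3 6 rfl le_rfl (le_of_mono r3_mono 6) nr3 (fun i _ => r3_mono i) hα
      (cg3 a p1 p2 p3 p4 p5 h h')
    have := (h' (xb 1) ⟨rfl, rfl⟩).2
    rw [e _ rfl, cj_e] at this
    exact ⟨s, by simpa [xb, mem_sE3] using this, e⟩
  · have a := (lg_aY _).au α hα
    obtain ⟨p1, p2, p3, p4, p5⟩ := aD α a h
    obtain ⟨y, hy, e⟩ := ext_of hP hF hα (nor_of_cm hP hF y1 6 rfl le_rfl (le_of_mono y1_mono 6) y1_mono ny1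
      (fun i hi => y1_cm i (by omega)) hα fun i hi => by
        interval_cases i
        exacts [pr_bot a, p1, p2, p3, p4, p5, a.mem])
    exact ⟨y, hy, fun u hu => (e u hu).symm⟩

end H77.C3Tri
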