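/- E7MAX (S5934): the matrices of `z` and `y` on the adjoint module. -/
import Cfsg.Agent.H36.E7MSpec

set_option autoImplicit false

namespace H77.E7DIM
open Cfsg.Lie Module H36.E7M
open scoped Matrix

/-- parity of the coefficients of the highest root -/
def hb (i : Fin 7) : F := if i.val = 2 ∨ i.val = 4 ∨ i.val = 6 then 1 else 0

/-- rows of `x_r(1)` for `r = ±θ`; `s` is the opposite root -/
def entH (s : Fin 126) (i : Fin 7) (c : chevE7.Idx) : F :=
  (if c = ih i then 1 else 0) + (if c = ix s then hb i else 0)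
def entE (r s : Fin 126) (pr : Fin 126 → Fin 126) (u : Fin 126) (c : chevE7.Idx) : F :=
  (if c = ix u then 1 else 0) +
      (if u = r then (if c = ih 0 then 1 else 0) + (if c = ix s then 1 else 0) else 0) +
      (if pr u = u then 0 else if c = ix (pr u) then 1 else 0)

def pz (u : Fin 126) : Fin 126 := if h : 93 ≤ u.val ∧ u.val ≤ 124 then ⟨u.val - 92, by omega⟩ else u
def py (u : Fin 126) : Fin 126 := if h : 1 ≤ u.val ∧ u.val ≤ 32 then ⟨u.val + 92, by omega⟩ else u

theorem z11 : ∀ i j : Fin 7, chevE7.xMat F (125 : Fin 126) 1 (ih i) (ih j) = entH 0 i (ih j) := by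
  decide +kernel
theorem z12 : ∀ (i : Fin 7) (j : Fin 126),
    chevE7.xMat F (125 : Fin 126) 1 (ih i) (ix j) = entH 0 i (ix j) := by
  decide +kernel
theorem z21 : ∀ (i : Fin 126) (j : Fin 7),
    chevE7.xMat F (125 : Fin 126) 1 (ix i) (ih j) = entE 125 0 pz i (ih j) := by
  decide +kernel
theorem z22 : ∀ (i : Fin 126) (j : Fin 126),
    chevE7.xMat F (125 : Fin 126) 1 (ix i) (ix j) = entE 125 0 pz i (ix j) := by
  decide +kernel
theorem y11 : ∀ i j : Fin 7, chevE7.xMat F (0 : Fin 126) 1 (ih i) (ih j) = entH 125 i (ih j) := by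
  decide +kernel
theorem y12 : ∀ (i : Fin 7) (j : Fin 126),
    chevE7.xMat F (0 : Fin 126) 1 (ih i) (ix j) = entH 125 i (ix j) := by
  decide +kernel
theorem y21 : ∀ (i : Fin 126) (j : Fin 7),
    chevE7.xMat F (0 : Fin 126) 1 (ix i) (ih j) = entE 0 125 py i (ih j) := by
  decide +kernel
theorem y22 : ∀ (i : Fin 126) (j : Fin 126),
    chevE7.xMat F (0 : Fin 126) 1 (ix i) (ix j) = entE 0 125 py i (ix j) := by
  decide +kernel

end H77.E7DIM
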