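/- E7MAX (S5934): the dimensions of the fixed spaces of `z` and `z * y` on the adjoint module. -/
import Cfsg.Agent.H77.E7DIMa

set_option autoImplicit false

namespace H77.E7DIM
open Cfsg.Lie Module H36.E7M
open scoped Matrix

theorem sum_ite (a : chevE7.Idx) (t : F) (v : LA) :
    ∑ c, (if c = a then t else 0) * v c = t * v a := by
  simp [ite_mul]

theorem sumH (s : Fin 126) (i : Fin 7) (v : LA) :
    ∑ c, entH s i c * v c = v (ih i) + hb i * v (ix s) := by
  simp only [entH, add_mul, Finset.sum_add_distrib, sum_ite, one_mul]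

theorem sumE (r s : Fin 126) (pr : Fin 126 → Fin 126) (u : Fin 126) (v : LA) :
    ∑ c, entE r s pr u c * v c = v (ix u) + (if u = r then v (ih 0) + v (ix s) else 0) +
      (if pr u = u then 0 else v (ix (pr u))) := by
  unfold entE
  split_ifs <;>
    simp only [add_mul, Finset.sum_add_distrib, sum_ite, one_mul, zero_mul, Finset.sum_const_zero]

theorem mv {I : Type} [Fintype I] (M : Matrix I I F) (v : I → F) (i : I) (f : I → F)
    (h : ∀ c, M i c = f c) : (M *ᵥ v) i = ∑ c, f c * v c :=
  Finset.sum_congr rfl fun c _ => congrArg (· * v c) (h c)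

theorem zval : ((z : GL chevE7.Idx F) : Matrix chevE7.Idx chevE7.Idx F) =
    chevE7.xMat F (125 : Fin 126) 1 := x_val 125
theorem yval : ((y : GL chevE7.Idx F) : Matrix chevE7.Idx chevE7.Idx F) =
    chevE7.xMat F (0 : Fin 126) 1 := x_val 0

theorem zH (v : LA) (i : Fin 7) : ρ z v (ih i) = v (ih i) + hb i * v (ix 0) := by
  rw [ρ_apply, zval, ← sumH]
  refine mv _ _ _ _ fun c => ?_
  rcases c with c | c
  · exact z11 i c
  · exact z12 i c

theorem zE (v : LA) (u : Fin 126) : ρ z v (ix u) = v (ix u) +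
    (if u = 125 then v (ih 0) + v (ix 0) else 0) + (if pz u = u then 0 else v (ix (pz u))) := by
  rw [ρ_apply, zval, ← sumE]
  refine mv _ _ _ _ fun c => ?_
  rcases c with c | c
  · exact z21 u c
  · exact z22 u c

theorem yH (v : LA) (i : Fin 7) : ρ y v (ih i) = v (ih i) + hb i * v (ix 125) := by
  rw [ρ_apply, yval, ← sumH]
  refine mv _ _ _ _ fun c => ?_
  rcases c with c | c
  · exact y11 i c
  · exact y12 i c

theorem yE (v : LA) (u : Fin 126) : ρ y v (ix u) = v (ix u) +
    (if u = 0 then v (ih 0) + v (ix 125) else 0) + (if py u = u then 0 else v (ix (py u))) := by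
  rw [ρ_apply, yval, ← sumE]
  refine mv _ _ _ _ fun c => ?_
  rcases c with c | c
  · exact y21 u c
  · exact y22 u c

/-- the dimension of a space cut out by coordinate equations -/
theorem dim_cut {n : ℕ} (j : Fin n → chevE7.Idx) (hj : Function.Injective j) (j0 : chevE7.Idx)
    (h0 : ∀ k, j k ≠ j0) (c : Fin n → F) (U : Submodule F LA)
    (hU : ∀ v, v ∈ U ↔ ∀ k, v (j k) + c k * v j0 = 0) : n + finrank F U = 133 := by
  classical
  let π : LA →ₗ[F] (Fin n → F) :=
    { toFun := fun v k => v (j k) + c k * v j0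
      map_add' := fun u v => by ext k; simp only [Pi.add_apply]; ring
      map_smul' := fun t v => by ext k; simp only [Pi.smul_apply, smul_eq_mul, RingHom.id_apply]; ring }
  have hk : LinearMap.ker π = U := by
    ext v
    rw [hU, LinearMap.mem_ker, funext_iff]; rfl
  have hs : LinearMap.range π = ⊤ := by
    rw [LinearMap.range_eq_top]
    intro w
    refine ⟨Function.extend j w 0, funext fun k => ?_⟩
    show Function.extend j w 0 (j k) + c k * Function.extend j w 0 j0 = w k
    rw [hj.extend_apply, Function.extend_apply' _ _ _ (fun ⟨k, h⟩ => h0 k h)]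
    simp
  have h := LinearMap.finrank_range_add_finrank_ker π
  rw [hk, hs, finrank_top, finrank_fintype_fun_eq_card, finrank_fintype_fun_eq_card,
    Fintype.card_fin] at h
  rw [h]
  show Fintype.card (Fin 7 ⊕ Fin 126) = 133
  simp

theorem f2 : ∀ a b : F, (a + b = a ↔ b = 0) := by decide

theorem fix_iff (g : G) (v : LA) :
    v ∈ fixS {g} ↔ (∀ i, ρ g v (ih i) = v (ih i)) ∧ ∀ u, ρ g v (ix u) = v (ix u) := by
  rw [mem_fixS]
  simp only [Set.mem_singleton_iff, forall_eq]
  constructor
  · intro h; exact ⟨fun i => by rw [h], fun u => by rw [h]⟩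
  · rintro ⟨h1, h2⟩
    funext c
    rcases c with c | c
    · exact h1 c
    · exact h2 c

/-- the coordinates killed on `Fix z` -/
def jz (k : Fin 34) : chevE7.Idx := if k.val = 33 then ih 0 else ix ⟨k.val, by omega⟩
theorem jz_inj : Function.Injective jz := by
  have : ∀ a b, jz a = jz b → a = b := by decide +kernel
  exact this
theorem jz_ne : ∀ k, jz k ≠ ix 125 := by decide +kernel
theorem jz_pz : ∀ u : Fin 126, pz u ≠ u → ∃ k, jz k = ix (pz u) := by decide +kernel
theorem jz_cases : ∀ k, jz k = ih 0 ∨ jz k = ix 0 ∨ ∃ u, pz u ≠ u ∧ u ≠ 125 ∧ jz k = ix (pz u) := by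
  decide +kernel

theorem fix_z (v : LA) : v ∈ fixS {z} ↔ ∀ k, v (jz k) + 0 * v (ix 125) = 0 := by
  rw [fix_iff]
  simp only [zero_mul, add_zero, zH, zE, add_assoc, f2]
  constructor
  · rintro ⟨h1, h2⟩ k
    have a0 : v (ix 0) = 0 := by simpa [hb] using h1 2
    have a1 : v (ih 0) = 0 := by
      have := h2 125
      rw [if_pos rfl, if_pos (by decide), a0] at this
      simpa using this
    rcases jz_cases k with h | h | ⟨u, h3, h4, h⟩ <;> rw [h]
    · exact a1
    · exact a0
    · have := h2 u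
      rwa [if_neg h4, if_neg h3, zero_add] at this
  · intro h
    have a0 : v (ix 0) = 0 := h 0
    have a1 : v (ih 0) = 0 := h 33
    refine ⟨fun i => by rw [a0, mul_zero], fun u => ?_⟩
    rw [a0, a1, add_zero, ite_self, zero_add]
    split_ifs with h3
    · rfl
    · obtain ⟨k, hk⟩ := jz_pz u h3
      rw [← hk]; exact h k

theorem dim_z : finrank F (fixS {z}) = 99 := by
  have := dim_cut jz jz_inj (ix 125) jz_ne (fun _ => 0) _ fix_z
  omega

theorem dim_range : finrank F (LinearMap.range (ρ z - 1)) = 34 := by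
  have hk : LinearMap.ker (ρ z - 1) = fixS {z} := by
    ext v
    rw [LinearMap.mem_ker, mem_fixS]
    simp only [Set.mem_singleton_iff, forall_eq, LinearMap.sub_apply, Module.End.one_apply, sub_eq_zero]
  have h := LinearMap.finrank_range_add_finrank_ker (ρ z - 1)
  rw [hk, dim_z, finrank_fintype_fun_eq_card] at h
  have h2 : Fintype.card chevE7.Idx = 133 := by
    show Fintype.card (Fin 7 ⊕ Fin 126) = 133
    simp
  omega

/-- the coordinates determined on `Fix (z * y)` -/
def jw (k : Fin 66) : chevE7.Idx :=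
  if h : k.val ≤ 32 then ix ⟨k.val, by omega⟩ else ix ⟨k.val + 60, by omega⟩
def cw (k : Fin 66) : F := if k.val = 0 ∨ k.val = 65 then 1 else 0
theorem jw_inj : Function.Injective jw := by
  have : ∀ a b, jw a = jw b → a = b := by decide +kernel
  exact this
theorem jw_ne : ∀ k, jw k ≠ ih 0 := by decide +kernel
theorem jw_cases : ∀ k, (jw k = ix 0 ∧ cw k = 1) ∨ (jw k = ix 125 ∧ cw k = 1) ∨
    (cw k = 0 ∧ ∃ u, (jw k = ix u ∨ jw k = ix (py u)) ∧ py u ≠ u) := by decide +kernel
theorem py_facts : ∀ u : Fin 126, py u ≠ u → u ≠ 0 ∧ u ≠ 125 ∧ pz u = u ∧ py u ≠ 0 ∧ py u ≠ 125 ∧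
    pz (py u) = u ∧ py (py u) = py u := by decide +kernel
theorem u_cases : ∀ u : Fin 126, u = 0 ∨ u = 125 ∨ (u ≠ 0 ∧ u ≠ 125 ∧ pz u = u ∧ py u = u) ∨
    (py u ≠ u ∧ ∃ k, cw k = 0 ∧ jw k = ix (py u)) ∨
    (u ≠ 0 ∧ u ≠ 125 ∧ pz u ≠ u ∧ py u = u ∧ pz u ≠ 0 ∧ py (pz u) = u ∧
      (∃ k, cw k = 0 ∧ jw k = ix u) ∧ ∃ k, cw k = 0 ∧ jw k = ix (pz u)) := by decide +kernel

theorem fix_zy (v : LA) : v ∈ fixS {z * y} ↔ ∀ k, v (jw k) + cw k * v (ih 0) = 0 := by
  rw [fix_iff]
  have e : ∀ c, ρ (z * y) v c = ρ z (ρ y v) c := fun c => by rw [map_mul]; rfl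
  have p0 : py 0 = 0 := by decide
  have p1 : py 125 = 125 := by decide
  have p2 : pz 0 = 0 := by decide
  have p3 : pz 125 = 125 := by decide
  have b0 : hb 0 = 0 := by decide
  have b2 : hb 2 = 1 := by decide
  have n1 : (0 : Fin 126) ≠ 125 := by decide
  have y0 : ρ y v (ix 0) = v (ix 0) + (v (ih 0) + v (ix 125)) := by
    rw [yE, if_pos rfl, if_pos p0, add_zero]
  have y1 : ρ y v (ix 125) = v (ix 125) := by
    rw [yE, if_neg n1.symm, if_pos p1, add_zero, add_zero]
  have y2 : ρ y v (ih 0) = v (ih 0) := by rw [yH, b0, zero_mul, add_zero]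
  simp only [e, zH, zE]
  constructor
  · rintro ⟨h1, h2⟩ k
    have a0 : v (ix 0) + v (ih 0) = 0 := by
      have := h1 2
      rw [yH, y0, b2] at this
      revert this
      generalize v (ih 2) = a, v (ix 0) = b, v (ih 0) = c, v (ix 125) = d
      revert a b c d; decide
    have a1 : v (ix 125) + v (ih 0) = 0 := by
      have := h2 0
      rw [y0, if_neg n1, if_pos p2] at this
      revert this
      generalize v (ix 0) = b, v (ih 0) = c, v (ix 125) = d
      revert b c d; decide
    rcases jw_cases k with ⟨h, h'⟩ | ⟨h, h'⟩ | ⟨h', u, h, h3⟩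
    · rw [h, h', one_mul, a0]
    · rw [h, h', one_mul, a1]
    · obtain ⟨q1, q2, q3, q4, q5, q6, q7⟩ := py_facts u h3
      have c1 : v (ix (py u)) = 0 := by
        have := h2 u
        rwa [yE, if_neg q1, if_neg q2, if_pos q3, if_neg h3, add_zero, add_zero, add_zero, f2] at this
      have c2 : v (ix u) = 0 := by
        have := h2 (py u)
        rwa [yE, if_neg q4, if_neg q5, if_pos q7, q6, if_neg (Ne.symm h3), yE, if_neg q1, if_neg h3, c1,
          add_zero, add_zero, add_zero, add_zero, add_zero, zero_add] at this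
      rw [h', zero_mul, add_zero]
      rcases h with h | h <;> rw [h]
      · exact c2
      · exact c1
  · intro h
    have a0 : v (ix 0) + 1 * v (ih 0) = 0 := h 0
    have a1 : v (ix 125) + 1 * v (ih 0) = 0 := h 65
    have hz : ∀ u k, cw k = 0 → jw k = ix u → v (ix u) = 0 := fun u k h1 h2 => by
      have := h k
      rwa [h1, h2, zero_mul, add_zero] at this
    refine ⟨fun i => ?_, fun u => ?_⟩
    · rw [yH, y0]
      revert a0 a1
      generalize v (ih i) = a, v (ix 0) = b, v (ih 0) = c, v (ix 125) = d, hb i = e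
      revert a b c d e; decide
    · rcases u_cases u with rfl | rfl | ⟨q1, q2, q3, q4⟩ | ⟨q1, k, q2, q3⟩ |
        ⟨q1, q2, q3, q4, q5, q6, ⟨k, q7, q8⟩, k', q9, q10⟩
      · rw [y0, if_neg n1, if_pos p2]
        revert a0 a1
        generalize v (ix 0) = b, v (ih 0) = c, v (ix 125) = d
        revert b c d; decide
      · rw [y0, y1, y2, if_pos rfl, if_pos p3]
        revert a0 a1
        generalize v (ix 0) = b, v (ih 0) = c, v (ix 125) = d
        revert b c d; decide
      · rw [yE, if_neg q1, if_neg q2, if_pos q3, if_pos q4, add_zero, add_zero, add_zero, add_zero]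
      · obtain ⟨r1, r2, r3, -⟩ := py_facts u q1
        rw [yE, if_neg r1, if_neg r2, if_pos r3, if_neg q1, hz _ k q2 q3, add_zero, add_zero, add_zero,
          add_zero]
      · rw [yE, if_neg q1, if_neg q2, if_neg q3, if_pos q4, yE, if_neg q5, q6, if_neg (Ne.symm q3),
          hz _ k q7 q8, hz _ k' q9 q10]
        simp

theorem dim_zy : finrank F (fixS {z * y}) = 67 := by
  have := dim_cut jw jw_inj (ih 0) jw_ne cw _ fix_zy
  omega

theorem jobDIM : JobDIM := ⟨dim_range, dim_z, dim_zy⟩

end H77.E7DIM
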