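import Cfsg.Agent.H11.FBSpec

/-!
# FB-J5 (S3404): the branch `θ = 5`
-/

set_option autoImplicit false

namespace H77.FbJ5

open MulAction Subgroup H11.FB

universe u v

section

variable {G : Type u} {Ω : Type v} [Group G] [MulAction G Ω]

/-- the normaliser of `⟨h⟩` permutes the fixed points of `h` -/
theorem smul_mem_fixedBy {h g : G} (hg : g ∈ normalizer (zpowers h : Set G)) {ω : Ω}
    (hω : ω ∈ fixedBy Ω h) : g • ω ∈ fixedBy Ω h := by
  have h1 : g⁻¹ * h * g⁻¹⁻¹ ∈ zpowers h :=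
    (mem_normalizer_iff.1 (inv_mem hg) h).1 (mem_zpowers h)
  rw [inv_inv] at h1
  have h2 : zpowers h ≤ stabilizer G ω := zpowers_le.2 (mem_fixedBy.1 hω)
  exact mem_fixedBy.2 (conj_smul_iff.1 (h2 h1))

theorem mem_normalizer_of_comm {h g : G} (e : g * h = h * g) :
    g ∈ normalizer (zpowers h : Set G) := by
  have : g ∈ centralizer (zpowers h : Set G) := by
    rw [mem_centralizer_iff]
    rintro _ ⟨k, rfl⟩
    exact ((show Commute g h from e).zpow_right k).eq.symm
  exact centralizer_le_normalizer _ this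

theorem comm_of_mem_zpowers {h x : G} (hx : x ∈ zpowers h) : x * h = h * x := by
  obtain ⟨k, rfl⟩ := hx
  exact ((Commute.refl h).zpow_left k).eq

/-- the fifth point -/
theorem exists_fifth {a b c d : Ω} {S : Set Ω} (n : D4 a b c d) (ha : a ∈ S) (hb : b ∈ S)
    (hc : c ∈ S) (hd : d ∈ S) (h5 : S.ncard = 5) :
    ∃ e, a ≠ e ∧ b ≠ e ∧ c ≠ e ∧ d ≠ e ∧ S = {a, b, c, d, e} := by
  obtain ⟨h1, h2, h3, h4, h5', h6⟩ := n
  have hf : S.Finite := Set.finite_of_ncard_ne_zero (by omega)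
  have c4 : ({a, b, c, d} : Set Ω).ncard = 4 := by
    rw [Set.ncard_insert_of_notMem (by simp [h1, h2, h3]), Set.ncard_insert_of_notMem (by simp [h4, h5']),
      Set.ncard_pair h6]
  have sub : ({a, b, c, d} : Set Ω) ⊆ S := by
    intro x hx
    rcases hx with rfl | rfl | rfl | rfl <;> assumption
  obtain ⟨e, he, hn⟩ := Set.exists_mem_notMem_of_ncard_lt_ncard
    (show ({a, b, c, d} : Set Ω).ncard < S.ncard by omega) (hf.subset sub)
  have hn' : a ≠ e ∧ b ≠ e ∧ c ≠ e ∧ d ≠ e := by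
    refine ⟨?_, ?_, ?_, ?_⟩ <;> rintro rfl <;> simp at hn
  refine ⟨e, hn'.1, hn'.2.1, hn'.2.2.1, hn'.2.2.2, ?_⟩
  symm
  refine Set.eq_of_subset_of_ncard_le ?_ ?_ hf
  · intro x hx
    rcases hx with rfl | rfl | rfl | rfl | rfl <;> assumption
  · rw [h5, Set.ncard_insert_of_notMem (by simp [h1, h2, h3, hn'.1]),
      Set.ncard_insert_of_notMem (by simp [h4, h5', hn'.2.1]),
      Set.ncard_insert_of_notMem (by simp [h6, hn'.2.2.1]), Set.ncard_pair hn'.2.2.2]

end

theorem jobJ5 : JobJ5.{u, v} := by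
  intro BU SV FI H3 AP AL1 AL2a AL2b S3 G Ω _ _ _ _ _ _ a b c d K H P h cx hH ho h5 np0
  have np : ∀ p : ℕ, p.Prime → NoP (X3 G a b c) p := fun p hp => np0 p hp (Or.inr (by decide))
  have fr := cx.hy.fr
  have hH1 : Nat.card H ≠ 1 := fun e => fr.Hne (card_eq_one.1 e)
  have hp : (orderOf h).Prime := ho ▸ Nat.minFac_prime hH1
  have h1 : h ≠ 1 := fun e => hp.ne_one (orderOf_eq_one_iff.2 e)
  have LX : L4 G a b c d ≤ X3 G a b c := inf_le_left
  have hL := mem_L4.1 (fr.Hle hH)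
  have th := cx.th1 h hH hp
  obtain ⟨e, ae, be, ce, de, hS⟩ := exists_fifth cx.hy.ne (S := fixedBy Ω h) hL.1 hL.2.1 hL.2.2.1
    hL.2.2.2 h5
  have hd : d ∈ fixedBy Ω h := hL.2.2.2
  have he : e ∈ fixedBy Ω h := by rw [hS]; simp
  obtain ⟨n1, n2, n3, n4, n5, n6⟩ := cx.hy.ne
  -- elements of `N ⊓ X` permute `d, e`
  have perm : ∀ g ∈ normalizer (zpowers h : Set G), g ∈ X3 G a b c → ∀ x ∈ fixedBy Ω h,
      a ≠ x → b ≠ x → c ≠ x → g • x = d ∨ g • x = e := by
    intro g hg hX x hx ax bx cx'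
    obtain ⟨ga, gb, gc⟩ := mem_X3.1 hX
    have m := smul_mem_fixedBy hg hx
    have i := MulAction.injective (β := Ω) g
    rw [hS] at m
    rcases m with m | m | m | m | m
    · exact absurd (i (ga.trans m.symm)) ax
    · exact absurd (i (gb.trans m.symm)) bx
    · exact absurd (i (gc.trans m.symm)) cx'
    · exact Or.inl m
    · exact Or.inr m
  have swap : ∀ g ∈ normalizer (zpowers h : Set G), g ∈ X3 G a b c → g • d = e → g • e = d := by
    intro g hg hX gd
    rcases perm g hg hX e he ae be ce with m | m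
    · exact m
    · exact absurd (MulAction.injective (β := Ω) g (gd.trans m.symm)) de
  have inH : ∀ g ∈ normalizer (zpowers h : Set G), g ∈ X3 G a b c → g • d = d → g ∈ H := by
    intro g hg hX gd
    obtain ⟨ga, gb, gc⟩ := mem_X3.1 hX
    exact (th.nl g (mem_L4.2 ⟨ga, gb, gc, gd⟩)).1 hg
  -- the involution `w`
  obtain ⟨w, wX, wN, wd, ww⟩ : ∃ w ∈ X3 G a b c, w ∈ normalizer (zpowers h : Set G) ∧ w • d = e ∧
      w * w = 1 := by
    obtain ⟨w0, w0N, wa, wb, wc, wd⟩ := th.tr a b c d a b c e ⟨n1, n2, n3, n4, n5, n6⟩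
      ⟨n1, n2, ae, n4, be, ce⟩ hL.1 hL.2.1 hL.2.2.1 hd hL.1 hL.2.1 hL.2.2.1 he
    have w0X : w0 ∈ X3 G a b c := mem_X3.2 ⟨wa, wb, wc⟩
    have we := swap w0 w0N w0X wd
    have sqd : (w0 * w0) • d = d := by rw [mul_smul, wd, we]
    have sqH := inH _ (mul_mem w0N w0N) (mul_mem w0X w0X) sqd
    have od : Odd (orderOf (w0 * w0)) := cx.odd.of_dvd_nat (orderOf_dvd_natCard H sqH)
    obtain ⟨k, hk⟩ := od
    refine ⟨w0 ^ (2 * k + 1), pow_mem w0X _, pow_mem w0N _, ?_, ?_⟩
    · have : (w0 * w0) ^ k ∈ stabilizer G d := pow_mem sqd k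
      rw [pow_succ', pow_mul, pow_two, mul_smul, mem_stabilizer_iff.1 this, wd]
    · rw [← (Commute.refl w0).mul_pow, ← hk, pow_orderOf_eq_one]
  have dich : ∀ g ∈ normalizer (zpowers h : Set G), g ∈ X3 G a b c → g ∈ H ∨ w⁻¹ * g ∈ H := by
    intro g hg hX
    rcases perm g hg hX d hd n3 n5 n6 with m | m
    · exact Or.inl (inH g hg hX m)
    · refine Or.inr (inH _ (mul_mem (inv_mem wN) hg) (mul_mem (inv_mem wX) hX) ?_)
      rw [mul_smul, m, inv_smul_eq_iff, wd]
  -- `|H| = 3`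
  have three : Nat.card H = 3 → orderOf h = 3 ∧ H = zpowers h := by
    intro c3
    have o3 : orderOf h = 3 := by rw [ho, c3]; exact Nat.prime_three.minFac_eq
    refine ⟨o3, (eq_of_le_of_card_ge (zpowers_le.2 hH) ?_).symm⟩
    rw [Nat.card_zpowers, o3, c3]
  have fin : Nat.card H = 3 → w * h ≠ h * w → Concl G := by
    intro c3 nc
    obtain ⟨o3, hz⟩ := three c3
    refine S3 cx hH o3 c3 (fun x hx ex => ?_) np
    rcases dich x (mem_normalizer_of_comm ex) hx with m | m
    · exact hz ▸ m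
    · exfalso
      have c1 : Commute (w⁻¹ * x) h := comm_of_mem_zpowers (hz ▸ m)
      have c2 : Commute x h := ex
      have c3 : Commute (x * (w⁻¹ * x)⁻¹) h := c2.mul_left c1.inv_left
      apply nc
      have : x * (w⁻¹ * x)⁻¹ = w := by group
      rw [this] at c3
      exact c3.eq
  obtain ⟨same, oddc⟩ := H3 cx hH hp (by omega) (by omega)
  rcases Nat.even_or_odd (Fintype.card Ω) with ev | od
  · have ap := AP cx ev hH hp hS h5 same wX wN wd ww
    obtain ⟨inv, cnj⟩ := AL1 cx hH hp hS h5 same np wX wN wd ap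
    have c3 : Nat.card H = 3 := by
      refine AL2b cx hH hp hS h5 wX wN wd ww inv fun z z' hz hz' => ?_
      have PX : P ≤ X3 G a b c := (cx.pd.le.trans fr.Kle).trans LX
      obtain ⟨g, hg, e1⟩ := cnj z (PX hz.1) hz.2.1 hz.2.2.1
      obtain ⟨g', hg', e2⟩ := cnj z' (PX hz'.1) hz'.2.1 hz'.2.2.1
      refine AL2a cx ev hH h5 hz hz' (mul_mem hg' (inv_mem hg)) ?_
      rw [← e1, ← e2]
      group
    exact fin c3 fun e => h1 (ap h hH e)
  · have c3 := oddc od
    by_cases wh : w * h = h * w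
    swap
    · exact fin c3 wh
    exfalso
    obtain ⟨o3, hz⟩ := three c3
    have hX : h ∈ X3 G a b c := LX (fr.Hle hH)
    have cN : Nat.card (normalizer (zpowers h : Set G) ⊓ X3 G a b c : Subgroup G) = 2 * 3 := by
      rw [th.cardX, h5, c3]
    have pg : IsPGroup 3 (zpowers h) := IsPGroup.of_card (n := 1) (by rw [Nat.card_zpowers, o3]; rfl)
    obtain ⟨X₁, cp⟩ := BU (X := X3 G a b c) (R := zpowers h) Nat.prime_three (by decide) o3
      (mem_zpowers h) (zpowers_le.2 hX) pg inferInstance (fun g hg gN => by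
        rcases dich g gN hg with m | m
        · exact comm_of_mem_zpowers (hz ▸ m)
        · have c1 : Commute (w⁻¹ * g) h := comm_of_mem_zpowers (hz ▸ m)
          have c2 : Commute w h := wh
          have c3 := c2.mul_left c1
          rw [mul_inv_cancel_left] at c3
          exact c3.eq) ⟨2, by decide, by rw [cN, Nat.card_zpowers, o3]⟩
    have le : X₁ ⊓ centralizer {h} ≤ normalizer (zpowers h : Set G) ⊓ X3 G a b c := by
      intro x hx
      refine ⟨mem_normalizer_of_comm ?_, cp.le hx.1⟩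
      exact (mem_centralizer_iff.1 hx.2 h rfl).symm
    have d6 := card_dvd_of_le le
    rw [cN] at d6
    have co : (Nat.card (X₁ ⊓ centralizer {h} : Subgroup G)).Coprime 3 :=
      Nat.Coprime.coprime_dvd_left (card_dvd_of_le inf_le_left) cp.cop
    have d2 := co.dvd_of_dvd_mul_right d6
    have p2 : IsPGroup 2 (X₁ ⊓ centralizer {h} : Subgroup G) := by
      rcases (Nat.dvd_prime Nat.prime_two).1 d2 with e1 | e1
      · exact IsPGroup.of_card (n := 0) (by rw [e1]; rfl)
      · exact IsPGroup.of_card (n := 1) (by rw [e1]; rfl)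
    have sv := SV Nat.prime_three cp hX o3 (Or.inr p2)
    obtain ⟨O, OX, O3, On, Oc⟩ := FI sv fun p hp _ => np p hp
    have Ob : O = ⊥ := np 3 Nat.prime_three O OX
      (fun m hm x hx => On m (fun y hy => mul_mem (mul_mem hm hy) (inv_mem hm)) x hx) O3
    have : h ∈ O := Oc h hX fun y hy => by
      rw [Ob, mem_bot] at hy
      rw [hy, mul_one, one_mul]
    rw [Ob, mem_bot] at this
    exact h1 this

end H77.FbJ5
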