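/- Job KL-A: two orbits on points. -/
import Cfsg.Agent.H38.KLIdx
import Cfsg.Agent.H17.CKWF
import Cfsg.Agent.H51.KLGeo

set_option autoImplicit false

open Module Submodule H53.CK H51.KL

namespace H77.KL

universe u v

variable {F : Type u} [Field F] {V : Type v} [AddCommGroup V] [Module F V]
  {K : Subgroup (V ≃ₗ[F] V)} {Q : Set V} {x y z x' y' z' a b : V}

/-- conjugate lines, symmetric form -/
def LE (K : Subgroup (V ≃ₗ[F] V)) (x y x' y' : V) : Prop :=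
  ∃ g ∈ K, ∀ v, v ∈ span F {x, y} ↔ g v ∈ span F {x', y'}

theorem LE.of (h : Ind F x y) (e : LnEq K x y x' y') : LE K x y x' y' := by
  obtain ⟨g, hg, h1, h2⟩ := e
  refine ⟨g, hg, fun v => ?_⟩
  rw [← span_eq_of_ind (h.map g) h1 h2, ← Set.image_pair g]
  exact (apply_mem_span_image_iff_mem_span (f := g.toLinearMap) g.injective).symm

theorem LE.ln (e : LE K x y x' y') : LnEq K x y x' y' :=
  let ⟨g, hg, h⟩ := e
  ⟨g, hg, (h _).1 (subset_span (by simp)), (h _).1 (subset_span (by simp))⟩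

theorem LE.symm (e : LE K x y x' y') : LE K x' y' x y :=
  let ⟨g, hg, h⟩ := e
  ⟨g⁻¹, K.inv_mem hg, fun v => by rw [h, H38.KL.app_inv]⟩

theorem LE.trans (e : LE K x y x' y') (e' : LE K x' y' a b) : LE K x y a b :=
  let ⟨g, hg, h⟩ := e
  let ⟨k, hk, h'⟩ := e'
  ⟨k * g, K.mul_mem hk hg, fun v => (h v).trans (h' _)⟩

theorem LE.sub (h : Ind F a b) (ha : a ∈ span F {x, y}) (hb : b ∈ span F {x, y}) : LE K a b x y :=
  .of h ⟨1, K.one_mem, ha, hb⟩

theorem LE.all (e : LE K x y x' y') {p : V → Prop} (hp : ∀ g ∈ K, ∀ v, p v → p (g v))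
    (h : ∀ v ∈ span F {x, y}, p v) : ∀ v ∈ span F {x', y'}, p v := fun v hv => by
  obtain ⟨g, hg, e⟩ := e
  rw [← H38.KL.app_inv g v] at hv ⊢
  exact hp g hg _ (h _ ((e _).2 hv))

theorem fix_of_sub (W : Submodule F V) (hW : ∀ g ∈ K, ∀ v ∈ W, g v ∈ W) (hx : x ∈ W) (x0 : x ≠ 0)
    (hu : z ∉ W) (two : ∀ y z, Ind F y z → LE K y z x' y' ∨ LE K y z a b) : H51.KL.Fix K := by
  by_contra n
  obtain ⟨y, hy, h1⟩ : ∃ y ∈ W, y ∉ F ∙ x := by
    by_contra! m; exact n (.inl ⟨x, x0, fun g hg => m _ (hW g hg x hx)⟩)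
  obtain ⟨φ, p1, p2⟩ := H62.exists_dual_eq_one hu
  obtain ⟨v, hv, h2⟩ : ∃ v, φ v = 0 ∧ v ∉ W := by
    by_contra! m
    exact n (.inr ⟨φ, by rintro rfl; simp at p1, fun g hg v hv => p2 _ (hW g hg v (m v hv))⟩)
  have hC : ∀ g ∈ K, ∀ v, (v ∈ W → v = 0) → g v ∈ W → g v = 0 := fun g hg v h m => by
    rw [h (H38.KL.inv_app g v ▸ hW _ (K.inv_mem hg) _ m), map_zero]
  have A1 : ∀ w ∈ span F {x, y}, w ∈ W := span_le.2 (Set.pair_subset hx hy)
  have C3 : ∀ w ∈ span F {v, z}, w ∈ W → w = 0 := fun w hw m => by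
    obtain ⟨s, t, rfl⟩ := mem_span_pair.1 hw
    have t0 : t = 0 := by simpa [hv, p1] using p2 _ m
    rw [t0, zero_smul, add_zero] at m ⊢
    by_contra s0
    exact h2 ((W.smul_mem_iff (left_ne_zero_of_smul s0)).1 m)
  have n12 : ¬ LE K x y x z := fun e => hu (e.all hW A1 z (subset_span (by simp)))
  have n13 : ¬ LE K x y v z := fun e => hu (e.all hW A1 z (subset_span (by simp)))
  have n32 : ¬ LE K v z x z := fun e => x0 (e.all hC C3 x (subset_span (by simp)) hx)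
  rcases two x y ⟨x0, h1⟩ with e1 | e1 <;>
  rcases two x z ⟨x0, fun h => hu (span_le.2 (Set.singleton_subset_iff.2 hx) h)⟩ with e2 | e2 <;>
  rcases two v z ⟨fun e => h2 (e ▸ W.zero_mem), fun h => by
    obtain ⟨c, rfl⟩ := mem_span_singleton.1 h; simp [hv] at p1⟩ with e3 | e3 <;>
  first | exact n12 (e1.trans e2.symm) | exact n13 (e1.trans e3.symm) | exact n32 (e3.trans e2.symm)

/-- points of `Q` on an affine line -/
noncomputable def N (F : Type u) [Field F] [Module F V] (Q : Set V) (x y : V) : ℕ := {t : F | y + t • x ∈ Q}.ncard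

theorem N_eq (hs : ∀ c : F, c ≠ 0 → ∀ v ∈ Q, c • v ∈ Q) {c : F} (c0 : c ≠ 0) (s : F) :
    N F Q x y = N F Q x (s • x + c • y) :=
  Set.ncard_congr (fun t _ => c * t - s) (fun t ht => by
      convert hs c c0 _ ht using 1; change _ ∈ Q ↔ _; congr! 1; module)
    (fun t t' _ _ e => mul_left_cancel₀ c0 (sub_left_injective e)) fun t ht =>
      ⟨c⁻¹ * (t + s), by
        convert hs _ (inv_ne_zero c0) _ ht using 1; change _ ∈ Q ↔ _; congr! 1
        match_scalars <;> field_simp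
        ring,
        by field_simp; ring⟩

variable [Finite F] [FiniteDimensional F V]

theorem cnt (hs : ∀ c : F, c ≠ 0 → ∀ v ∈ Q, c • v ∈ Q) (h0 : 0 ∉ Q) {U : Submodule F V} (hx : x ∈ Q)
    (xU : x ∈ U) {r d : ℕ} (hd : finrank F U = d + 1) (hr : ∀ y ∈ U, y ∉ F ∙ x → N F Q x y = r) :
    (({v ∈ U | v ∈ Q}.ncard : ℕ) : ℤ) = Nat.card F - 1 + r * (Nat.card F ^ d - 1) := by
  have := finV F V
  have x0 : x ≠ 0 := fun e => h0 (e ▸ hx)
  have le : (F ∙ x) ≤ U := span_le.2 (Set.singleton_subset_iff.2 xU)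
  have k : ∀ y w : V, y ∉ F ∙ x → w - y ∈ F ∙ x ∨ y - w ∈ F ∙ x → w ∉ F ∙ x := fun y w h1 h2 h3 =>
    h1 (h2.elim (fun h => by simpa using sub_mem h3 h) fun h => by simpa using add_mem h h3)
  have e1 := H17.CKW.dcount ((U : Set V) \ (F ∙ x)) ({v ∈ U | v ∈ Q} \ (F ∙ x)) (fun y w => w - y ∈ F ∙ x)
    (m := r) (n := Nat.card F) (fun y hy => by
      rw [← hr y hy.1 hy.2, eq_comm]
      refine Set.ncard_congr (fun t _ => y + t • x)
        (fun t ht => have : y + t • x - y ∈ F ∙ x := mem_span_singleton.2 ⟨t, by simp⟩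
          ⟨⟨⟨add_mem hy.1 (smul_mem _ _ xU), ht⟩, k _ _ hy.2 (.inl this)⟩, this⟩)
        (fun t t' _ _ e => smul_left_injective F x0 (add_left_cancel e)) fun w hw => ?_
      obtain ⟨t, ht⟩ := mem_span_singleton.1 hw.2
      have : y + t • x = w := by rw [ht, add_sub_cancel]
      exact ⟨t, show _ ∈ Q from this ▸ hw.1.1.2, this⟩) fun w hw => by
      rw [← Set.ncard_univ, eq_comm]
      refine Set.ncard_congr (fun t _ => w - t • x) (fun t _ =>
        have : w - (w - t • x) ∈ F ∙ x := mem_span_singleton.2 ⟨t, by simp⟩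
        ⟨⟨sub_mem hw.1.1 (smul_mem _ _ xU), k _ _ hw.2 (.inr this)⟩, this⟩)
        (fun t t' _ _ e => smul_left_injective F x0 (sub_right_injective e)) fun y hy => ?_
      obtain ⟨t, ht⟩ := mem_span_singleton.1 hy.2
      exact ⟨t, trivial, by rw [ht, sub_sub_cancel]⟩
  have e2 := H17.CKW.ncard_diff le
  have e3 := H17.CKW.ncard_diff (bot_le (a := F ∙ x))
  have e4 := Set.ncard_inter_add_ncard_sdiff_eq_ncard {v ∈ U | v ∈ Q} (F ∙ x)
  rw [show {v ∈ U | v ∈ Q} ∩ (F ∙ x) = ((F ∙ x : Submodule F V) : Set V) \ (⊥ : Submodule F V) from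
    Set.ext fun v => ⟨fun h => ⟨h.2, fun e => h0 ((mem_bot F).1 e ▸ h.1.2)⟩, fun h => ⟨⟨le h.1, by
      obtain ⟨c, rfl⟩ := mem_span_singleton.1 h.1
      exact hs c (left_ne_zero_of_smul h.2) x hx⟩, h.1⟩⟩] at e4
  rw [finrank_span_singleton x0] at e2 e3
  rw [hd] at e2
  rw [finrank_bot] at e3
  zify at e1 e4
  refine mul_right_cancel₀ (b := (Nat.card F : ℤ)) (Nat.cast_ne_zero.2 Nat.card_pos.ne') ?_
  linear_combination -e1 + r * e2 + (Nat.card F : ℤ) * (e3 - e4)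

theorem arc (hs : ∀ c : F, c ≠ 0 → ∀ v ∈ Q, c • v ∈ Q) (h0 : 0 ∉ Q) (hn : 4 ≤ finrank F V) {r : ℕ}
    (hr : ∀ x ∈ Q, ∀ y, y ∉ F ∙ x → N F Q x y = r) (hx : x ∈ Q) (i : Ind F y z)
    (hm : ∀ v ∈ span F {y, z}, v ∉ Q) (lt : r < Nat.card F) : r = 0 ∨ r + 1 = Nat.card F := by
  have := finV F V
  have r3 : ∀ w ∈ Q, finrank F (span F {y, z, w}) = 3 := fun w hw => H38.KL.rk3 ⟨i, fun h => hm w h hw⟩
  obtain ⟨U, hU, r4⟩ : ∃ U, span F {y, z, x} ≤ U ∧ finrank F U = 3 + 1 := by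
    obtain ⟨u, hu⟩ := H38.KL.exists_notMem (U := span F {y, z, x}) (by rw [r3 x hx]; omega)
    exact ⟨_, le_sup_left, by rw [finrank_sup_span_singleton hu, r3 x hx]⟩
  have mU : ∀ w ∈ U, span F {y, z, w} ≤ U := fun w hw => span_le.2 (Set.insert_subset (hU (subset_span (by simp)))
    (Set.pair_subset (hU (subset_span (by simp))) hw))
  obtain ⟨M, hM⟩ : ∃ M, M = {v ∈ span F {y, z, x} | v ∈ Q}.ncard := ⟨_, rfl⟩
  have e0 : ∀ w ∈ Q, _ := fun w hw => cnt hs h0 hw (subset_span (by simp)) (r3 w hw) fun y _ => hr w hw y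
  have e1 := H17.CKW.dcount {v ∈ U | v ∈ Q} ((fun w => span F {y, z, w}) '' {v ∈ U | v ∈ Q})
    (fun w E => span F {y, z, w} = E) (m := 1) (n := M)
    (fun w hw => Set.ncard_eq_one.2 ⟨_, Set.ext fun E => ⟨fun h => h.2.symm, fun h => ⟨⟨w, hw, h.symm⟩, h.symm⟩⟩⟩)
    (by
      rintro _ ⟨w, hw, rfl⟩
      rw [hM, ← Nat.cast_inj (R := ℤ), e0 x hx, ← e0 w hw.2]
      congr 2
      ext v
      refine ⟨fun h => ⟨h.2.le (subset_span (by simp)), h.1.2⟩, fun h => ⟨⟨mU w hw.1 h.1, h.2⟩,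
        eq_of_le_of_finrank_eq (span_le.2 (Set.insert_subset (subset_span (by simp))
          (Set.pair_subset (subset_span (by simp)) h.1))) ((r3 v h.2).trans (r3 w hw.2).symm)⟩⟩)
  have e2 := cnt hs h0 hx (hU (subset_span (by simp))) r4 fun y _ => hr x hx y
  have e3 := e0 x hx
  rw [← hM] at e3
  have q1 : 1 < Nat.card F := Finite.one_lt_card
  generalize Nat.card F = q at *
  generalize ((fun w => span F {y, z, w}) '' {v ∈ U | v ∈ Q}).ncard = k at e1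
  zify at e1
  have e4 : (q : ℤ) - 1 - r = (1 + r * (q + 1)) * (q - k) :=
    mul_left_cancel₀ (a := (q : ℤ) - 1) (by omega) (by linear_combination -e1 + e2 - k * e3)
  by_contra! n
  have := Int.le_of_dvd (by omega) (Dvd.intro _ e4.symm)
  have : (1 : ℤ) ≤ r := by omega
  nlinarith

theorem core (hn : 4 ≤ finrank F V) (hs : ∀ c : F, c ≠ 0 → ∀ v ∈ Q, c • v ∈ Q) (h0 : 0 ∉ Q)
    (hK : ∀ g ∈ K, ∀ v ∈ Q, g v ∈ Q) (ha : a ∈ Q) (hb : b ∉ Q) (b0 : b ∉ F ∙ a) (i : Ind F y z)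
    (hm : ∀ v ∈ span F {y, z}, v ∉ Q) (two : ∀ x w, Ind F x w → LE K x w a b ∨ LE K x w y z) : H51.KL.Fix K := by
  have := finV F V
  have hK' : ∀ g ∈ K, ∀ v, v ∉ Q → g v ∉ Q := fun g hg v h m =>
    h (H38.KL.inv_app g v ▸ hK _ (K.inv_mem hg) _ m)
  have n0 : ∀ x ∈ Q, x ≠ 0 := fun x hx e => h0 (e ▸ hx)
  have q1 : 1 < Nat.card F := Finite.one_lt_card
  have ln : ∀ x ∈ Q, ∀ w, w ∉ F ∙ x → _ := fun x hx w hw =>
    cnt hs h0 hx (subset_span (by simp)) (H38.KL.rk2 ⟨n0 x hx, hw⟩) (r := N F Q x w) fun v hv m => by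
      obtain ⟨s, t, rfl⟩ := mem_span_pair.1 hv
      exact (N_eq hs (fun e => m (mem_span_singleton.2 ⟨s, by simp [e]⟩)) s).symm
  have hr : ∀ x ∈ Q, ∀ w, w ∉ F ∙ x → N F Q x w = N F Q a b := fun x hx w hw => by
    obtain ⟨g, hg, e⟩ := (two x w ⟨n0 x hx, hw⟩).resolve_right fun e =>
      e.symm.all hK' hm x (subset_span (by simp)) hx
    have e1 := ln x hx w hw
    rw [Set.ncard_congr (s := {v ∈ span F {x, w} | v ∈ Q}) (t := {v ∈ span F {a, b} | v ∈ Q}) (fun v _ => g v)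
      (fun v hv => ⟨(e v).1 hv.1, hK g hg v hv.2⟩) (fun _ _ _ _ h => g.injective h) fun v hv =>
        ⟨g⁻¹ v, ⟨(e _).2 ((H38.KL.app_inv g v).symm ▸ hv.1), hK _ (K.inv_mem hg) v hv.2⟩,
          H38.KL.app_inv g v⟩, ln a ha b b0] at e1
    exact_mod_cast (mul_right_cancel₀ (by rw [pow_one]; omega) (add_left_cancel e1)).symm
  rcases arc hs h0 hn hr ha i hm (by
    rw [← Set.ncard_univ]
    exact Set.ncard_lt_ncard (Set.ssubset_univ_iff.2 fun e => hb (by simpa using e.ge (Set.mem_univ 0)))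
      ) with e | e
  · refine .inl ⟨a, n0 a ha, fun g hg => by_contra fun m => ?_⟩
    have := (Set.ncard_eq_zero (Set.toFinite _)).1 ((hr a ha _ m).trans e)
    exact this.le (show 0 ∈ _ by simpa using hK g hg a ha)
  refine fix_of_sub (x := b) (z := a) ⟨⟨⟨Qᶜ, fun {u v} hu hv m => ?_⟩, h0⟩, fun c v hv m => ?_⟩ hK' hb
    (fun e => b0 (e ▸ zero_mem _)) (fun h => h ha) two
  · have := Set.ncard_le_ncard (s := {t : F | u + t • (u + v) ∈ Q}) (t := Set.univ \ {0, -1}) (fun t ht => by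
      refine ⟨trivial, ?_⟩
      rintro (rfl | rfl)
      · exact hu (by simpa using ht)
      · exact hv (by simpa using hs _ (neg_ne_zero.2 one_ne_zero) _ ht)) (Set.toFinite _)
    rw [Set.ncard_sdiff (Set.subset_univ _), Set.ncard_pair (by simp), Set.ncard_univ] at this
    have := (hr _ m u fun h => by
      obtain ⟨c, hc⟩ := mem_span_singleton.1 h
      by_cases c0 : c = 0
      · rw [c0, zero_smul] at hc
        exact hv (by simpa [← hc] using m)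
      · exact hu (hc ▸ hs c c0 _ m)).ge.trans this
    omega
  · by_cases c0 : c = 0
    · exact h0 (by simpa [c0] using m)
    · exact hv (by simpa [c0] using hs _ (inv_ne_zero c0) _ m)

theorem jobA : JobA.{u, v} := by
  intro F _ _ V _ _ _ K sc hn x₁ x₂ h1 h2 ne orb y₁ z₁ y₂ z₂ i1 i2 nl two alt
  replace two : ∀ y z, Ind F y z → LE K y z y₁ z₁ ∨ LE K y z y₂ z₂ := fun y z i =>
    (two y z i).imp (.of i) (.of i)
  rcases alt with fl | ⟨x, x0, hx⟩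
  swap
  · have iv : ∀ g ∈ K, ∀ x, (∀ φ : Dual F V, φ x = 0 → H62.HasTv K φ x) →
        ∀ φ : Dual F V, φ (g x) = 0 → H62.HasTv K φ (g x) := fun g hg x h φ p =>
      (h (φ ∘ₗ g.toLinearMap) p).conj' hg fun _ => rfl
    have sm : ∀ (c : F) x, (∀ φ : Dual F V, φ x = 0 → H62.HasTv K φ x) →
        ∀ φ : Dual F V, φ (c • x) = 0 → H62.HasTv K φ (c • x) := fun c x h φ p =>
      (H62.HasTv.smul_left_iff c).1 (h _ (by simpa using p))
    obtain ⟨z, hz⟩ : ∃ z, ¬ ∀ φ : Dual F V, φ z = 0 → H62.HasTv K φ z := by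
      by_contra! m
      obtain ⟨g, hg, -, e⟩ := H38.KL.st (S := K) (fun φ u => m u φ) (U := ⊥) h1 h2 (by rw [finrank_bot]; omega)
      exact ne g hg e
    refine fix_of_sub ⟨⟨⟨{x | ∀ φ : Dual F V, φ x = 0 → H62.HasTv K φ x}, fun {a b} ha hb => ?_⟩,
      fun φ _ => .zero_right K φ⟩, sm⟩ iv hx x0 hz two
    by_cases m : b ∈ F ∙ a
    · obtain ⟨c, rfl⟩ := mem_span_singleton.1 m
      simpa [add_smul] using sm (1 + c) a ha
    · obtain ⟨φ, p1, p2⟩ := H62.exists_dual_pair m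
      obtain ⟨g, hg, e⟩ := (ha φ p2).exists_apply b
      rw [p1, one_smul, add_comm] at e
      exact e ▸ iv g hg b hb
  have hs : ∀ x : V, ∀ c : F, c ≠ 0 → ∀ v ∈ {v | ∃ g ∈ K, g x = v}, c • v ∈ {v | ∃ g ∈ K, g x = v} := by
    rintro x c c0 _ ⟨g, hg, rfl⟩
    obtain ⟨k, hk, e⟩ := sc c c0
    exact ⟨k * g, K.mul_mem hk hg, e _⟩
  have h0 : ∀ x : V, x ≠ 0 → 0 ∉ {v | ∃ g ∈ K, g x = v} := fun x x0 ⟨g, _, e⟩ => x0 (by simpa using e)
  have hK : ∀ x : V, ∀ g ∈ K, ∀ v ∈ {v | ∃ g ∈ K, g x = v}, g v ∈ {v | ∃ g ∈ K, g x = v} := by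
    rintro x k hk _ ⟨g, hg, rfl⟩
    exact ⟨k * g, K.mul_mem hk hg, rfl⟩
  have me : ∀ x : V, x ∈ {v | ∃ g ∈ K, g x = v} := fun x => ⟨1, K.one_mem, rfl⟩
  have dj : ∀ v ∈ {v | ∃ g ∈ K, g x₁ = v}, v ∉ {v | ∃ g ∈ K, g x₂ = v} := by
    rintro _ ⟨g, hg, rfl⟩ ⟨k, hk, e⟩
    exact ne _ (K.mul_mem (K.inv_mem hk) hg) (H38.KL.inv_eq e)
  have ind : ∀ x₁ x₂ : V, x₁ ≠ 0 → x₂ ≠ 0 → (∀ v ∈ {v | ∃ g ∈ K, g x₁ = v}, v ∉ {v | ∃ g ∈ K, g x₂ = v}) →
      ∀ a ∈ {v | ∃ g ∈ K, g x₁ = v}, ∀ b ∈ {v | ∃ g ∈ K, g x₂ = v}, Ind F a b :=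
    fun x₁ x₂ h1 h2 dj a ha b hb => ⟨fun e => h0 _ h1 (e ▸ ha), fun m => by
      obtain ⟨c, rfl⟩ := mem_span_singleton.1 m
      exact dj _ (hs _ c (fun e => h0 _ h2 (by simpa [e] using hb)) a ha) hb⟩
  have i12 := ind _ _ h1 h2 dj _ (me _) _ (me _)
  have sw : ∀ a b : V, Ind F a b → LE K b a a b := fun a b i =>
    .sub i.symm (subset_span (by simp)) (subset_span (by simp))
  obtain ⟨y, z, i, n, two⟩ : ∃ y z, Ind F y z ∧ ¬ LE K y z x₁ x₂ ∧
      ∀ x w, Ind F x w → LE K x w x₁ x₂ ∨ LE K x w y z := by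
    rcases two _ _ i12 with e | e
    · exact ⟨_, _, i2, fun h => nl (h.trans e).symm.ln, fun x w i => (two x w i).imp_left (·.trans e.symm)⟩
    · exact ⟨_, _, i1, fun h => nl (h.trans e).ln, fun x w i => (two x w i).symm.imp_left (·.trans e.symm)⟩
  by_cases mQ : ∀ v ∈ span F {y, z}, v ∉ {v | ∃ g ∈ K, g x₂ = v}
  · exact core hn (hs _) (h0 _ h2) (hK _) (me _) (dj _ (me _)) i12.symm.2 i mQ fun x w j =>
      (two x w j).imp_left (·.trans (sw _ _ i12).symm)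
  by_cases mP : ∀ v ∈ span F {y, z}, v ∉ {v | ∃ g ∈ K, g x₁ = v}
  · exact core hn (hs _) (h0 _ h1) (hK _) (me _) (fun h => dj _ h (me _)) i12.2 i mP two
  push Not at mP mQ
  obtain ⟨a, ha, pa⟩ := mP
  obtain ⟨b, hb, pb⟩ := mQ
  have iab := ind _ _ h1 h2 dj _ pa _ pb
  have col : ∀ x : V, x ≠ 0 → ∀ {u w u' w' : V}, FlEq K u w u' w' → u ∈ {v | ∃ g ∈ K, g x = v} →
      u' ∈ {v | ∃ g ∈ K, g x = v} := by
    rintro x x0 u w u' w' ⟨g, hg, e, -⟩ hu
    obtain ⟨c, hc⟩ := mem_span_singleton.1 e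
    have m := hK x g hg u hu
    have c0 : c ≠ 0 := fun e => h0 x x0 (by rwa [← hc, e, zero_smul] at m)
    simpa [← hc, c0] using hs x _ (inv_ne_zero c0) _ m
  have le : ∀ {u w u' w' : V}, Ind F u w → FlEq K u w u' w' → LE K u w u' w' := fun j ⟨g, hg, e, e'⟩ =>
    .of j ⟨g, hg, span_mono (by simp) e, e'⟩
  have l1 := LE.sub (K := K) iab ha hb
  have l2 := LE.sub (K := K) iab.symm hb ha
  have l3 := sw _ _ i12
  obtain ⟨j, k, jk, e⟩ := fl ![x₁, x₂, a, b] ![x₂, x₁, b, a] fun j => by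
    fin_cases j
    exacts [i12, i12.symm, iab, iab.symm]
  fin_cases j <;> fin_cases k <;> first
    | exact absurd rfl jk
    | exact absurd (me _) (dj _ (col _ h1 e (me _)))
    | exact absurd pb (dj _ (col _ h1 e (me _)))
    | exact absurd pb (dj _ (col _ h1 e pa))
    | exact absurd (me _) (dj _ (col _ h1 e pa))
    | exact absurd (col _ h2 e (me _)) (dj _ (me _))
    | exact absurd (col _ h2 e (me _)) (dj _ pa)
    | exact absurd (col _ h2 e pb) (dj _ (me _))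
    | exact absurd (col _ h2 e pb) (dj _ pa)
    | exact absurd ((le i12 e).trans l1).symm n
    | exact absurd (l1.symm.trans (le iab e)) n
    | exact absurd (((le i12.symm e).trans l2).symm.trans l3) n
    | exact absurd ((l2.symm.trans (le iab.symm e)).trans l3) n

end H77.KL
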