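/- Job KL-DIV: transvections and the index. -/
import Cfsg.Agent.H51.KLSpec

set_option autoImplicit false

open Module Submodule H53.CK H51.KL

namespace H77.KL

universe u v

theorem dvd_card {A X : Type*} [Group A] [MulAction A X] [Finite X] {d : ℕ}
    (h : ∀ x : X, d ∣ (MulAction.stabilizer A x).index) : d ∣ Nat.card X := by
  classical
  have := Fintype.ofFinite (MulAction.orbitRel.Quotient A X)
  rw [Nat.card_congr (MulAction.selfEquivSigmaOrbits A X), Nat.card_sigma]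
  exact Finset.dvd_sum fun ω _ => by rw [Nat.card_coe_set_eq, ← MulAction.index_stabilizer]; exact h _

variable {F : Type u} [Field F] [Finite F] {V : Type v} [AddCommGroup V] [Module F V]
  [FiniteDimensional F V] {S K : Subgroup (V ≃ₗ[F] V)}

omit [Finite F] in
theorem card_ann {x : V} (hx : x ≠ 0) :
    Nat.card (F ∙ x).dualAnnihilator = Nat.card F ^ (finrank F V - 1) := by
  rw [Module.natCard_eq_pow_finrank (K := F), ← Subspace.finrank_add_finrank_dualAnnihilator_eq (F ∙ x),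
    finrank_span_singleton hx, Nat.add_sub_cancel_left]

omit [Finite F] [FiniteDimensional F V] in
theorem mem_ann {x : V} {φ : Dual F V} : φ ∈ (F ∙ x).dualAnnihilator ↔ φ x = 0 := by
  simp [mem_dualAnnihilator, mem_span_singleton]
  exact ⟨fun h => (h 1).resolve_left one_ne_zero, fun h _ => .inr h⟩

theorem key (hS : AllTv S) {x : V} (hx : x ≠ 0) : ∃ m : S → ℕ,
    (∀ g, m g * Nat.card (Tv K (g.1⁻¹ x)) = Nat.card F ^ (finrank F V - 1)) ∧
      ∀ d, (∀ g, d ∣ m g) → d ∣ K.relIndex S := by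
  have := finGL F V
  choose τ h1 h2 using fun φ : (F ∙ x).dualAnnihilator => hS φ x (mem_ann.1 φ.2)
  let f : Multiplicative (F ∙ x).dualAnnihilator →* S := MonoidHom.mk' (fun φ => ⟨τ φ.toAdd, h1 _⟩)
    fun φ ψ => Subtype.ext (LinearEquiv.ext fun v => by
      simp [h2, mem_ann.1 φ.toAdd.2, add_smul]; abel)
  let := MulAction.compHom (S ⧸ K.subgroupOf S) f
  refine ⟨fun g => (MulAction.stabilizer (Multiplicative (F ∙ x).dualAnnihilator)
    (g : S ⧸ K.subgroupOf S)).index, fun g => ?_, fun d h =>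
      dvd_card (A := Multiplicative (F ∙ x).dualAnnihilator) fun y => ?_⟩
  swap
  · obtain ⟨g, rfl⟩ := QuotientGroup.mk_surjective y
    exact h g
  have st : ∀ φ, φ ∈ MulAction.stabilizer (Multiplicative (F ∙ x).dualAnnihilator)
      (g : S ⧸ K.subgroupOf S) ↔ g.1⁻¹ * τ φ.toAdd * g ∈ K := fun φ => by
    rw [MulAction.mem_stabilizer_iff, eq_comm, mul_assoc]
    exact QuotientGroup.eq
  have ap : ∀ φ v, (g.1⁻¹ * τ φ * g.1) v = v + φ.1 (g.1 v) • g.1⁻¹ x := fun φ v => by simp [h2]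
  rw [← card_ann hx, ← Nat.card_eq_of_bijective (fun φ : MulAction.stabilizer
    (Multiplicative (F ∙ x).dualAnnihilator) (g : S ⧸ K.subgroupOf S) => (⟨φ.1.toAdd.1 ∘ₗ g.1.toLinearMap,
      by simpa using mem_ann.1 φ.1.toAdd.2, _, (st _).1 φ.2, ap _⟩ : Tv K (g.1⁻¹ x)))
    ⟨fun φ ψ e => Subtype.ext (Multiplicative.toAdd.injective <| Subtype.ext (LinearMap.ext fun v => by
      simpa using congrArg (fun a : Tv K (g.1⁻¹ x) => a.1 (g.1⁻¹ v)) e)), fun ⟨φ, p, k, hk, q⟩ =>
      ⟨⟨.ofAdd ⟨φ ∘ₗ (g.1⁻¹).toLinearMap, mem_ann.2 p⟩, (st _).2 (by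
        convert hk; ext v; simp [ap, q])⟩, Subtype.ext (LinearMap.ext fun v => by simp)⟩⟩]
  exact Subgroup.index_mul_card _

theorem card_Tv_le {x : V} {g : V ≃ₗ[F] V} (hg : g ∈ K) : Nat.card (Tv K x) ≤ Nat.card (Tv K (g x)) :=
  have := finV F (Dual F V)
  Nat.card_le_card_of_injective (fun φ => ⟨φ.1 ∘ₗ g.symm.toLinearMap, by simpa using φ.2.1, φ.2.2.conj hg⟩)
    fun φ ψ e => Subtype.ext (LinearMap.ext fun v => by
      simpa using congrArg (fun a : Tv K (g x) => a.1 (g v)) e)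

theorem jobDiv : JobDiv.{u, v} := by
  intro F _ _ V _ _ _ S K _ hS hn
  have := finV F (Dual F V)
  have q0 : 0 < Nat.card F := Nat.card_pos
  refine ⟨fun co => ?_, fun x hx => ⟨fun pt => ?_, fun t ht => ?_⟩⟩
  · have : Nontrivial V := Module.nontrivial_of_finrank_pos (R := F) hn
    obtain ⟨x, hx⟩ := exists_ne (0 : V)
    obtain ⟨m, h1, h2⟩ := key (K := K) hS hx
    have := Fintype.ofFinite F
    obtain ⟨p, -, e, hp, he⟩ := FiniteField.card' F
    rw [← Nat.card_eq_fintype_card] at he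
    by_contra! n
    refine hp.one_lt.ne' (Nat.eq_one_of_dvd_coprimes co (h2 p fun g => ?_) (he ▸ dvd_pow_self p e.ne_zero))
    have hy : g.1⁻¹ x ≠ 0 := by simpa using hx
    obtain ⟨φ, p1, p2⟩ := n _ hy
    obtain ⟨k, -, hk⟩ := (Nat.dvd_prime_pow hp).1 (by
      rw [pow_mul, ← he]; exact Dvd.intro _ (h1 g) : m g ∣ p ^ (e * (finrank F V - 1)))
    refine hk ▸ dvd_pow_self p fun k0 => p2 ?_
    have := h1 g
    rw [hk, k0, pow_zero, one_mul, ← card_ann hy] at this
    exact ((AddSubgroup.eq_of_le_of_card_ge (H := Tv K _) (K := (F ∙ g.1⁻¹ x).dualAnnihilator.toAddSubgroup)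
      (fun φ h => mem_ann.2 h.1) this.ge).ge (mem_ann.2 p1)).2
  · obtain ⟨m, h1, h2⟩ := key (K := K) hS hx
    have e : ∀ y, y ≠ 0 → Nat.card (Tv K y) = Nat.card (Tv K x) := fun y hy => by
      obtain ⟨g, hg, e⟩ := pt x y hx hy
      obtain ⟨k, hk, e'⟩ := pt y x hy hx
      exact le_antisymm (e' ▸ card_Tv_le hk) (e ▸ card_Tv_le hg)
    have h3 : ∀ g, m g * Nat.card (Tv K x) = _ := fun g => e (g.1⁻¹ x) (by simpa using hx) ▸ h1 g
    exact ⟨m 1, (mul_comm _ _).trans (h3 1), h2 _ fun g =>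
      (Nat.eq_of_mul_eq_mul_right Nat.card_pos ((h3 1).trans (h3 g).symm)).dvd⟩
  · obtain ⟨C, hC⟩ := (F ∙ x).exists_isCompl
    have r := finrank_add_eq_of_isCompl hC
    rw [finrank_span_singleton hx] at r
    let b := finBasis F C
    have l := Nat.card_le_card_of_injective (fun (φ : Tv K x) i => (⟨φ.1 (b i), by
      obtain ⟨g, hg, e⟩ := φ.2.2
      exact ⟨g, hg, by simp [e, φ.2.1], e _⟩⟩ : Tl K x (b i))) fun φ ψ e => Subtype.ext (by
        have e1 : φ.1 ∘ₗ C.subtype = ψ.1 ∘ₗ C.subtype := b.ext fun i => congrArg Subtype.val (congrFun e i)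
        refine LinearMap.ext fun v => ?_
        obtain ⟨a, ha, c, hc, rfl⟩ := mem_sup.1 (hC.sup_eq_top.ge (mem_top (x := v)))
        obtain ⟨a, rfl⟩ := mem_span_singleton.1 ha
        simpa [φ.2.1, ψ.2.1] using LinearMap.congr_fun e1 ⟨c, hc⟩)
    rw [Nat.card_pi] at l
    have := Finset.prod_le_pow_card Finset.univ (fun i => Nat.card (Tl K x (b i)) * t) _ fun i _ =>
      ht _ ⟨hx, fun h => b.ne_zero i (Subtype.ext (disjoint_def.1 hC.disjoint _ h (b i).2))⟩
    rw [Finset.prod_mul_distrib, Finset.prod_const, Finset.card_univ, Fintype.card_fin] at this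
    rw [← r, Nat.add_sub_cancel_left]
    exact (Nat.mul_le_mul_right _ l).trans this

end H77.KL
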