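import Cfsg.Agent.H74.O11Kit

/-! O11 tower, slot O2: when `Z` has odd order, the involutions of `H` centralise `Z`. -/

set_option autoImplicit false

namespace H77.O11

open Subgroup MulAction H74.O11

universe u

variable {G Ω : Type u} [Group G] [MulAction G Ω] {Γ : Geo G Ω}

/-- an element of weight `-1` inverts the member -/
theorem inv_of_w {a : Ω} {o x : G} (ho : o • a = a) (hw : Γ.w o a = -1) (hx : x ∈ Γ.sub a) :
    o * x * o⁻¹ = x⁻¹ := by
  rw [Γ.w_spec ho hx, hw]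
  have h10 : (-1 : ZMod 11).val = 10 := rfl
  rw [h10, eq_inv_iff_mul_eq_one, ← pow_succ]
  exact Γ.pow_eleven hx

theorem eq_one_of_comm {a : Ω} {o x : G} (ho : o • a = a) (hw : Γ.w o a = -1) (hx : x ∈ Γ.sub a)
    (hc : o * x = x * o) : x = 1 := by
  have h1 := inv_of_w ho hw hx
  rw [hc, mul_inv_cancel_right] at h1
  have h2 : x ^ 2 = 1 := by rw [sq]; nth_rewrite 1 [h1]; simp
  have h3 := Γ.pow_eleven hx
  calc x = x ^ 11 * ((x ^ 2) ^ 5)⁻¹ := by group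
    _ = 1 := by rw [h2, h3]; simp

/-- the centraliser of `o` in the kernel -/
def CK (K : Subgroup G) (o : G) : Set G := {k | k ∈ K ∧ o * k = k * o}

theorem card_CK [Finite Ω] {a b : Ω} {K : Subgroup G} (hK : Ker Γ a b K) {o : G}
    (ho : o ∈ Γ.H a b) : (CK K o).ncard + 1 = {c : Ω | o • c = c}.ncard := by
  obtain ⟨hoa, hob⟩ := Γ.mem_H.1 ho
  have hba : b ≠ a := hK.ne.symm
  have hinj : Set.InjOn (fun k : G => k • b) (CK K o) := by
    intro k hk k' hk' e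
    have e' : k • b = k' • b := e
    have : k'⁻¹ * k = 1 := hK.semi _ (mul_mem (inv_mem hk'.1) hk.1) b hba
      (by rw [mul_smul, e', inv_smul_smul])
    exact (inv_mul_eq_one.1 this).symm
  have him : (fun k : G => k • b) '' CK K o = {c : Ω | o • c = c} \ {a} := by
    ext d
    constructor
    · rintro ⟨k, hk, rfl⟩
      refine ⟨?_, ?_⟩
      · show o • (k • b) = k • b
        rw [← mul_smul, hk.2, mul_smul, hob]
      · exact smul_ne (A_fix (hK.le hk.1)) hba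
    · rintro ⟨hd, hda⟩
      have hd' : o • d = d := hd
      obtain ⟨k, hk, e⟩ := hK.trans b d hba hda
      refine ⟨k, ⟨hk, ?_⟩, e⟩
      have h1 : k⁻¹ * (o * k * o⁻¹) = 1 := by
        refine hK.semi _ (mul_mem (inv_mem hk) (hK.norm o hoa k hk)) b hba ?_
        rw [mul_smul, mul_smul, mul_smul, inv_smul_eq_iff.2 hob.symm, e, hd', ← e, inv_smul_smul]
      have h2 := inv_mul_eq_one.1 h1
      calc o * k = o * k * o⁻¹ * o := by group
        _ = k * o := by rw [← h2]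
  rw [← hinj.ncard_image, him]
  exact Set.ncard_sdiff_singleton_add_one (show a ∈ {c : Ω | o • c = c} from hoa)

theorem card_bound [Finite G] {a b : Ω} {K : Subgroup G} (hK : Ker Γ a b K) {o o' : G}
    (ho : o ∈ Γ.H a b) (ho' : o' ∈ Γ.H a b) (hw : Γ.w o a = -1) (hw' : Γ.w o' a = -1)
    (hne : o * o' ≠ 1) :
    (CK K o).ncard * 11 * (CK K o').ncard ≤ Nat.card Ω - 1 := by
  obtain ⟨hoa, -⟩ := Γ.mem_H.1 ho
  obtain ⟨hoa', -⟩ := Γ.mem_H.1 ho'
  have cP : ∀ k ∈ K, ∀ x ∈ Γ.sub a, x * k = k * x := fun k hk x hx => Γ.mem_A.1 (hK.le hk) x hx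
  have key : ∀ k ∈ CK K o, ∀ x ∈ Γ.sub a, ∀ k' ∈ CK K o', k = x * k' → k = 1 := by
    intro k hk x hx k' hk' e
    have hkP : k ∈ Γ.sub a := by
      refine hK.fpf (o * o') (mul_mem ho ho') hne ?_ k hk.1 ?_
      · rw [Γ.w_mul hoa hoa', hw, hw']; decide
      · have e1 : o' * k * o'⁻¹ = x⁻¹ * x⁻¹ * k := by
          calc o' * k * o'⁻¹ = (o' * x * o'⁻¹) * (o' * k' * o'⁻¹) := by rw [e]; group
            _ = x⁻¹ * k' := by rw [inv_of_w hoa' hw' hx, hk'.2]; group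
            _ = x⁻¹ * x⁻¹ * k := by rw [e]; group
        have e2 : o * o' * k * (o * o')⁻¹ = x * x * k := by
          calc o * o' * k * (o * o')⁻¹ = o * (o' * k * o'⁻¹) * o⁻¹ := by group
            _ = (o * x * o⁻¹)⁻¹ * (o * x * o⁻¹)⁻¹ * (o * k * o⁻¹) := by rw [e1]; group
            _ = x * x * k := by rw [inv_of_w hoa hw hx, hk.2]; group
        rw [e2, cP k hk.1 _ (mul_mem hx hx), inv_mul_cancel_left]
        exact mul_mem hx hx
    exact eq_one_of_comm hoa hw hkP hk.2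
  let f : CK K o × Γ.sub a × CK K o' → K := fun p =>
    ⟨p.1.1 * (p.2.1.1 * p.2.2.1), mul_mem p.1.2.1 (mul_mem (hK.subP p.2.1.2) p.2.2.2.1)⟩
  have hf : Function.Injective f := by
    rintro ⟨⟨k1, hk1⟩, ⟨x1, hx1⟩, ⟨l1, hl1⟩⟩ ⟨⟨k2, hk2⟩, ⟨x2, hx2⟩, ⟨l2, hl2⟩⟩ e
    have e' : k1 * (x1 * l1) = k2 * (x2 * l2) := congrArg Subtype.val e
    have hl : l2 * l1⁻¹ ∈ CK K o' := ⟨mul_mem hl2.1 (inv_mem hl1.1), by
      have := hl1.2
      have h3 : o' * l1⁻¹ = l1⁻¹ * o' := by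
        calc o' * l1⁻¹ = l1⁻¹ * (l1 * o') * l1⁻¹ := by group
          _ = l1⁻¹ * o' := by rw [← this]; group
      rw [← mul_assoc, hl2.2, mul_assoc, h3, mul_assoc]⟩
    have hk : k2⁻¹ * k1 ∈ CK K o := ⟨mul_mem (inv_mem hk2.1) hk1.1, by
      have := hk2.2
      have h3 : o * k2⁻¹ = k2⁻¹ * o := by
        calc o * k2⁻¹ = k2⁻¹ * (k2 * o) * k2⁻¹ := by group
          _ = k2⁻¹ * o := by rw [← this]; group
      rw [← mul_assoc, h3, mul_assoc, hk1.2, mul_assoc]⟩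
    have h1 : k2⁻¹ * k1 = 1 := by
      refine key _ hk (x2 * x1⁻¹) (mul_mem hx2 (inv_mem hx1)) _ hl ?_
      have c := cP _ hl.1 _ (inv_mem hx1)
      calc k2⁻¹ * k1 = k2⁻¹ * (k1 * (x1 * l1)) * l1⁻¹ * x1⁻¹ := by group
        _ = x2 * (l2 * l1⁻¹ * x1⁻¹) := by rw [e']; group
        _ = x2 * x1⁻¹ * (l2 * l1⁻¹) := by rw [← c]; group
    have h2 : k2 = k1 := inv_mul_eq_one.1 h1
    subst h2
    have e2 : x1 * l1 = x2 * l2 := mul_left_cancel e'
    have e3 : x2⁻¹ * x1 = l2 * l1⁻¹ := by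
      calc x2⁻¹ * x1 = x2⁻¹ * (x1 * l1) * l1⁻¹ := by group
        _ = l2 * l1⁻¹ := by rw [e2]; group
    have h4 : x2⁻¹ * x1 = 1 :=
      eq_one_of_comm hoa' hw' (mul_mem (inv_mem hx2) hx1) (by rw [e3]; exact hl.2)
    have h5 : x2 = x1 := inv_mul_eq_one.1 h4
    subst h5
    have h6 : l1 = l2 := mul_left_cancel e2
    subst h6
    rfl
  have := Nat.card_le_card_of_injective f hf
  rw [Nat.card_prod, Nat.card_prod, Γ.card, hK.card, Nat.card_coe_set_eq, Nat.card_coe_set_eq,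
    ← mul_assoc] at this
  exact this

theorem arith {m k μ v : ℕ} (hm : 2 ≤ m) (hk : k ≤ 5 * m + 5) (hμ : Even (μ + 1))
    (hb : μ * 11 * μ ≤ v - 1) (h11 : 11 ∣ v - 1) (h12 : 12 < v)
    (e : m * (v - (μ + 1)) = k * ((μ + 1) * (μ + 1 - 1))) : False := by
  obtain ⟨n, hn⟩ := h11
  obtain ⟨r, hr⟩ := hμ
  rw [Nat.add_sub_cancel] at e
  have hv : 23 ≤ v := by omega
  by_cases h1 : μ = 1
  · subst h1
    have h2 : m * 21 ≤ m * (v - (1 + 1)) := Nat.mul_le_mul_left _ (by omega)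
    omega
  · have h3 : 3 ≤ μ := by omega
    obtain ⟨w, hw⟩ : ∃ w, v - (μ + 1) = w := ⟨_, rfl⟩
    rw [hw] at e
    have h4 : μ * 11 * μ ≤ w + μ := by omega
    have h5 : m * (μ * 11 * μ) ≤ m * w + m * μ := by
      rw [← mul_add]; exact Nat.mul_le_mul_left _ h4
    have h6 : k * ((μ + 1) * μ) ≤ (5 * m + 5) * ((μ + 1) * μ) := Nat.mul_le_mul_right _ hk
    have h7 : μ * (m * (11 * μ)) ≤ μ * ((5 * m + 5) * (μ + 1) + m) := by nlinarith
    have h8 := Nat.le_of_mul_le_mul_left h7 (by omega)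
    nlinarith [Nat.mul_le_mul hm h3]

theorem jobO2 : H74.O11.JobO2.{u} := by
  intro G Ω _ _ _ _ Γ h o0 a b K hK hodd o ho z hz
  by_contra hne
  have hab := hK.ne
  have hzH := Γ.Z_le_H a b hz
  obtain ⟨hza, hzb⟩ := Γ.mem_H.1 hzH
  have ho' : z * o * z⁻¹ ∈ invs (Γ.H a b) := by
    refine ⟨mul_mem (mul_mem hzH ho.1) (inv_mem hzH), ?_, ?_⟩
    · calc z * o * z⁻¹ * (z * o * z⁻¹) = z * (o * o) * z⁻¹ := by group
        _ = 1 := by rw [ho.2.1]; group
    · simpa using ho.2.2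
  have hoo : o ≠ z * o * z⁻¹ := fun e => hne (by
    calc o * z = z * o * z⁻¹ * z := by rw [← e]
      _ = z * o := by group)
  have hne' : o * (z * o * z⁻¹) ≠ 1 := fun e =>
    hoo (mul_left_cancel (ho.2.1.trans e.symm))
  obtain ⟨hw, hev, -, -, k, hk, e⟩ := o0 a b hab hodd o ho
  obtain ⟨hw', -⟩ := o0 a b hab hodd _ ho'
  have hb := card_bound hK ho.1 ho'.1 hw hw' hne'
  have hc : (CK K (z * o * z⁻¹)).ncard = (CK K o).ncard := by
    have h1 := card_CK hK ho.1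
    have h2 := card_CK hK ho'.1
    have h3 : {c : Ω | (z * o * z⁻¹) • c = c} = (fun c => z • c) '' {c : Ω | o • c = c} := by
      ext c
      constructor
      · intro hc
        refine ⟨z⁻¹ • c, ?_, smul_inv_smul z c⟩
        have hc' : (z * o * z⁻¹) • c = c := hc
        show o • (z⁻¹ • c) = z⁻¹ • c
        rw [eq_inv_smul_iff, ← mul_smul, ← mul_smul, hc']
      · rintro ⟨d, hd, rfl⟩
        have hd' : o • d = d := hd
        show (z * o * z⁻¹) • (z • d) = z • d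
        rw [mul_smul, inv_smul_smul, mul_smul, hd']
    rw [h3, Set.ncard_image_of_injective _ (MulAction.injective z)] at h2
    omega
  have hm : 2 ≤ (invs (Γ.H a b)).ncard := by
    have := (Set.one_lt_ncard (Set.toFinite (invs (Γ.H a b)))).2 ⟨o, ho, _, ho', hoo⟩
    omega
  rw [hc] at hb
  rw [← card_CK hK ho.1] at hev e
  exact arith hm (by omega) hev hb h.dvd11 h.big12 e

end H77.O11
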