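import Cfsg.Agent.H52.RCSpec
import Cfsg.Agent.H14.Comp

/-!
# RC-R1b, RC-RO4 (S3860)
-/

set_option autoImplicit false

namespace H77.RcR1b

open Subgroup H52.RC
open scoped commutatorElement

universe u

theorem jobR1b : JobR1b.{u} := by
  intro ka _ ex lc G _ _ m hH L hL qs
  refine ⟨fun n hn g => ?_⟩
  rcases H14.comp_eq_or_commute hL (H14.comp_map_conj hL g) with e | e
  · rw [e]
    exact ⟨n, hn, rfl⟩
  exfalso
  have cm : ∀ a ∈ L, ∀ b ∈ L, Commute a (g * b * g⁻¹) := fun a ha b hb => by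
    have : ⁅a, g * b * g⁻¹⁆ ∈ ⁅L, L.map (MulAut.conj g).toMonoidHom⁆ :=
      commutator_mem_commutator ha ⟨b, hb, rfl⟩
    rw [e, mem_bot] at this
    exact commutatorElement_eq_one_iff_commute.1 this
  obtain ⟨⟨x, xL, x1, xo, s, sL, sx⟩, ex2⟩ := ex G L qs
  obtain ⟨-, -, -, -, k5, -, k7, -⟩ := ka G
  obtain ⟨Q, -, hQ, -⟩ := k7 L ⊥ IsPGroup.of_bot bot_le
  obtain ⟨v, -, vL, vZ, v2, w, wL, -, wv⟩ := ex2 Q hQ
  have pv : P2 v := by
    obtain ⟨k, hk⟩ := (k5 _).1 qs.zc _ v2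
    exact ⟨k + 1, by rw [pow_succ', pow_mul, hk]⟩
  have nc : g * v * g⁻¹ ∉ center G := fun hc => by
    have e1 : g * v * g⁻¹ = v := by
      have := mem_center_iff.1 hc g⁻¹
      calc g * v * g⁻¹ = g * v * g⁻¹ * g⁻¹ * g := by group
        _ = v := by rw [← this]; group
    rw [e1] at hc
    exact vZ (mem_Zc.2 ⟨vL, fun a _ => mem_center_iff.1 hc a⟩)
  have i1 : Inv (s * (g * w * g⁻¹)) (g * v * g⁻¹) := by
    have c := (cm s sL v vL).inv_right.eq
    unfold H52.RC.Inv at *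
    calc s * (g * w * g⁻¹) * (g * v * g⁻¹) * (s * (g * w * g⁻¹))⁻¹
        = s * (g * (w * v * w⁻¹) * g⁻¹) * s⁻¹ := by group
      _ = s * (g * v * g⁻¹)⁻¹ * s⁻¹ := by rw [wv]; group
      _ = (g * v * g⁻¹)⁻¹ := by rw [c]; group
  have i2 : Inv (s * (g * w * g⁻¹)) x := by
    have c := (cm x xL w wL).eq
    unfold H52.RC.Inv at *
    calc s * (g * w * g⁻¹) * x * (s * (g * w * g⁻¹))⁻¹
        = s * ((g * w * g⁻¹) * x) * (g * w * g⁻¹)⁻¹ * s⁻¹ := by group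
      _ = s * x * s⁻¹ := by rw [← c]; group
      _ = x⁻¹ := sx
  exact ((lc G m hH).1 _ x _ (pv.conj g) nc xo x1 (cm x xL v vL).symm i1 i2).2 s (cm s sL v vL) sx

/-- `ROC` from the absence of commuting involutions, along an isomorphism -/
theorem roc_of {S : Type u} {A : Type} [Group S] [Group A] [Finite A] (e : S ≃* A) (x g : A)
    (x1 : x ≠ 1) (x5 : x ^ 5 = 1) (hg : g * x * g⁻¹ = x⁻¹)
    (ht : ∀ t : A, t * x = x * t → t * t = 1 → t = 1) : ROC S := by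
  have : Finite S := Finite.of_equiv A e.symm.toEquiv
  refine ⟨e.symm x, fun h => x1 (by simpa using congrArg e h), ?_, ⟨e.symm g, ?_⟩, ?_⟩
  · rw [MulEquiv.orderOf_eq]
    exact (show Odd 5 by decide).of_dvd_nat (orderOf_dvd_of_pow_eq_one x5)
  · unfold H52.RC.Inv
    rw [← map_inv, ← map_mul, ← map_mul, hg, map_inv]
  · by_contra ev
    have ev' : 2 ∣ Nat.card (C1 (e.symm x)) := (Nat.not_odd_iff_even.1 ev).two_dvd
    have : Fact (Nat.Prime 2) := ⟨Nat.prime_two⟩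
    obtain ⟨t, ho⟩ := exists_prime_orderOf_dvd_card' 2 ev'
    have c := (mem_C1.1 t.2).eq
    have h2 : (t : S) * t = 1 := by
      have := pow_orderOf_eq_one t
      rw [ho, pow_two] at this
      exact congrArg Subtype.val this
    have := ht (e t) (by simpa using congrArg e c) (by rw [← map_mul, h2, map_one])
    have t1 : t = 1 := Subtype.ext (by simpa using this)
    rw [t1, orderOf_one] at ho
    exact absurd ho (by decide)

open Equiv Equiv.Perm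

def x5 : Perm (Fin 5) := ⟨![1, 2, 3, 4, 0], ![4, 0, 1, 2, 3], by decide, by decide⟩
def g5 : Perm (Fin 5) := swap 1 4 * swap 2 3
def x7 : Perm (Fin 7) := ⟨![1, 2, 3, 4, 0, 5, 6], ![4, 0, 1, 2, 3, 5, 6], by decide, by decide⟩
def g7 : Perm (Fin 7) := swap 1 4 * swap 2 3

theorem c5 (t : Perm (Fin 5)) (h : t * x5 = x5 * t) (h2 : t * t = 1) : t = 1 := by
  have h0 : ∀ i, t (x5 i) = x5 (t i) := fun i => congrArg (· i) h
  have t1 : t 1 = x5 (t 0) := h0 0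
  have t2 : t 2 = x5 (t 1) := h0 1
  have t3 : t 3 = x5 (t 2) := h0 2
  have t4 : t 4 = x5 (t 3) := h0 3
  have tt : t (t 0) = 0 := congrArg (· 0) h2
  have key : ∀ a0 a1 a2 a3 a4 : Fin 5, a1 = x5 a0 → a2 = x5 a1 → a3 = x5 a2 → a4 = x5 a3 →
      ![a0, a1, a2, a3, a4] a0 = 0 → a0 = 0 ∧ a1 = 1 ∧ a2 = 2 ∧ a3 = 3 ∧ a4 = 4 := by
    intro a0 a1 a2 a3 a4 e1 e2 e3 e4
    subst e4 e3 e2 e1
    revert a0
    decide
  have tv : ∀ i, ![t 0, t 1, t 2, t 3, t 4] i = t i := fun i => by fin_cases i <;> rfl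
  obtain ⟨e0, e1, e2, e3, e4⟩ := key _ _ _ _ _ t1 t2 t3 t4 ((tv _).trans tt)
  refine Equiv.ext fun i => ?_
  fin_cases i
  exacts [e0, e1, e2, e3, e4]

theorem c7 (t : Perm (Fin 7)) (h : t * x7 = x7 * t) (h2 : t * t = 1) (hs : sign t = 1) : t = 1 := by
  have h0 : ∀ i, t (x7 i) = x7 (t i) := fun i => congrArg (· i) h
  have t1 : t 1 = x7 (t 0) := h0 0
  have t2 : t 2 = x7 (t 1) := h0 1
  have t3 : t 3 = x7 (t 2) := h0 2
  have t4 : t 4 = x7 (t 3) := h0 3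
  have t5 : t 5 = x7 (t 5) := h0 5
  have t6 : t 6 = x7 (t 6) := h0 6
  have n1 : t 0 ≠ t 1 := t.injective.ne (by decide)
  have n2 : t 5 ≠ t 6 := t.injective.ne (by decide)
  have tt : t (t 0) = 0 := congrArg (· 0) h2
  have key : ∀ a0 a1 a2 a3 a4 a5 a6 : Fin 7, a1 = x7 a0 → a2 = x7 a1 → a3 = x7 a2 → a4 = x7 a3 →
      a5 = x7 a5 → a6 = x7 a6 → a0 ≠ a1 → a5 ≠ a6 → ![a0, a1, a2, a3, a4, a5, a6] a0 = 0 →
      a0 = 0 ∧ a1 = 1 ∧ a2 = 2 ∧ a3 = 3 ∧ a4 = 4 ∧ ((a5 = 5 ∧ a6 = 6) ∨ (a5 = 6 ∧ a6 = 5)) := by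
    intro a0 a1 a2 a3 a4 a5 a6 e1 e2 e3 e4
    subst e4 e3 e2 e1
    revert a0 a5 a6
    decide
  have tv : ∀ i, ![t 0, t 1, t 2, t 3, t 4, t 5, t 6] i = t i := fun i => by fin_cases i <;> rfl
  obtain ⟨e0, e1, e2, e3, e4, e⟩ := key _ _ _ _ _ _ _ t1 t2 t3 t4 t5 t6 n1 n2 ((tv _).trans tt)
  rcases e with ⟨e5, e6⟩ | ⟨e5, e6⟩
  · refine Equiv.ext fun i => ?_
    fin_cases i
    exacts [e0, e1, e2, e3, e4, e5, e6]
  · have : t = swap 5 6 := by
      refine Equiv.ext fun i => ?_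
      fin_cases i
      · exact e0
      · exact e1
      · exact e2
      · exact e3
      · exact e4
      · exact e5
      · exact e6
    rw [this, sign_swap (by decide)] at hs
    exact absurd hs (by decide)

theorem jobRO4 : JobRO4.{u} := by
  intro S _ h
  rcases h with ⟨⟨e⟩⟩ | ⟨⟨e⟩⟩
  · refine ⟨roc_of e ⟨x5, mem_alternatingGroup.2 (by decide)⟩ ⟨g5, mem_alternatingGroup.2 (by decide)⟩
      (by decide) (by decide) (by decide) fun t h1 h2 =>
        Subtype.ext (c5 t (congrArg Subtype.val h1) (congrArg Subtype.val h2)), ?_⟩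
    rw [Nat.card_congr e.toEquiv, nat_card_alternatingGroup, Nat.card_fin]
    decide
  · refine ⟨roc_of e ⟨x7, mem_alternatingGroup.2 (by decide)⟩ ⟨g7, mem_alternatingGroup.2 (by decide)⟩
      (by decide) (by decide) (by decide) fun t h1 h2 =>
        Subtype.ext (c7 t (congrArg Subtype.val h1) (congrArg Subtype.val h2)
          (mem_alternatingGroup.1 t.2)), ?_⟩
    rw [Nat.card_congr e.toEquiv, nat_card_alternatingGroup, Nat.card_fin]
    decide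

end H77.RcR1b
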